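import Mathlib
import Cfsg.Agent.Lib.Helper6.Comm
import Cfsg.Agent.Lib.Helper6.RealElt
import Cfsg.Agent.Lib.Helper6.NormGrow
import Cfsg.Agent.Lib.Helper6.CycSylow
import Cfsg.Agent.Lib.Helper7.CoprimeCount
import Cfsg.Agent.Lib.Helper7.PPrime

set_option autoImplicit false

namespace Cfsg.Agent.Lib.Helper6

open Cfsg.Agent.Lib

/-- in a commutative group, a subgroup generated by `k` elements of order dividing `p` has order
at most `p ^ k` -/
theorem card_closure_le_pow {B : Type*} [Group B] [Finite B] (hcomm : ∀ a b : B, a * b = b * a)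
    {p : ℕ} (hp : p.Prime) (T : Finset B) (hT : ∀ t ∈ T, t ^ p = 1) :
    Nat.card (Subgroup.closure (T : Set B)) ≤ p ^ T.card := by
  classical
  induction T using Finset.induction_on with
  | empty => simp
  | insert a T ha ih =>
    have hT' : ∀ t ∈ T, t ^ p = 1 := fun t ht => hT t (Finset.mem_insert_of_mem ht)
    have h1 := ih hT'
    have hcl : Subgroup.closure ((insert a T : Finset B) : Set B) =
        Subgroup.zpowers a ⊔ Subgroup.closure (T : Set B) := by
      rw [Finset.coe_insert, Set.insert_eq, Subgroup.closure_union, Subgroup.zpowers_eq_closure]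
    haveI : (Subgroup.closure (T : Set B)).Normal :=
      ⟨fun n hn g => by rw [hcomm g n, mul_assoc, mul_inv_cancel, mul_one]; exact hn⟩
    have h2 := Helper7.card_sup_mul_card_inf (Subgroup.zpowers a) (Subgroup.closure (T : Set B))
    have h3 : 0 < Nat.card ↥(Subgroup.closure (T : Set B) ⊓ Subgroup.zpowers a) := Nat.card_pos
    have h4 : Nat.card ↥(Subgroup.zpowers a ⊔ Subgroup.closure (T : Set B)) ≤
        Nat.card (Subgroup.zpowers a) * Nat.card (Subgroup.closure (T : Set B)) := by
      rw [← h2]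
      exact Nat.le_mul_of_pos_right _ h3
    have h5 : Nat.card (Subgroup.zpowers a) ≤ p := by
      rw [Nat.card_zpowers]
      exact Nat.le_of_dvd hp.pos (orderOf_dvd_of_pow_eq_one (hT a (Finset.mem_insert_self a T)))
    rw [hcl, Finset.card_insert_of_notMem ha, pow_succ]
    calc Nat.card ↥(Subgroup.zpowers a ⊔ Subgroup.closure (T : Set B))
        ≤ Nat.card (Subgroup.zpowers a) * Nat.card (Subgroup.closure (T : Set B)) := h4
      _ ≤ p * p ^ T.card := Nat.mul_le_mul h5 h1
      _ = p ^ T.card * p := by ring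

/-- in a finite commutative group the number of solutions of `a ^ p = 1` is at most
`p ^ rank` -/
theorem card_omega_le {A : Type*} [Group A] [Finite A] (hcomm : ∀ a b : A, a * b = b * a)
    {p : ℕ} (hp : p.Prime) : Nat.card {a : A // a ^ p = 1} ≤ p ^ Group.rank A := by
  classical
  letI : CommGroup A := { (inferInstance : Group A) with mul_comm := hcomm }
  set φ : A →* A := powMonoidHom p with hφ
  have hker : Nat.card {a : A // a ^ p = 1} = Nat.card φ.ker :=
    Nat.card_congr (Equiv.subtypeEquivRight (fun a => by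
      rw [MonoidHom.mem_ker, hφ, powMonoidHom_apply]))
  have h1 := Subgroup.card_eq_card_quotient_mul_card_subgroup φ.ker
  have h2 := Subgroup.card_eq_card_quotient_mul_card_subgroup φ.range
  have h3 : Nat.card (A ⧸ φ.ker) = Nat.card φ.range :=
    Nat.card_congr (QuotientGroup.quotientKerEquivRange φ).toEquiv
  have h4 : Nat.card φ.ker = Nat.card (A ⧸ φ.range) := by
    rw [h3] at h1
    have h5 : 0 < Nat.card φ.range := Nat.card_pos
    have h6 : Nat.card ↥φ.range * Nat.card ↥φ.ker = Nat.card (A ⧸ φ.range) * Nat.card ↥φ.range :=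
      h1.symm.trans h2
    nlinarith
  obtain ⟨S, hS, hcl⟩ := Group.rank_spec A
  set T : Finset (A ⧸ φ.range) := S.image (QuotientGroup.mk' φ.range) with hTdef
  have hTcl : Subgroup.closure (T : Set (A ⧸ φ.range)) = ⊤ := by
    rw [hTdef, Finset.coe_image, ← MonoidHom.map_closure, hcl]
    exact Subgroup.map_top_of_surjective _ (QuotientGroup.mk'_surjective _)
  have hTp : ∀ t ∈ T, t ^ p = 1 := by
    intro t ht
    obtain ⟨a, -, rfl⟩ := Finset.mem_image.mp ht
    rw [← map_pow, ← MonoidHom.mem_ker, QuotientGroup.ker_mk']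
    exact ⟨a, rfl⟩
  have h7 := card_closure_le_pow (B := A ⧸ φ.range) (fun a b => mul_comm a b) hp T hTp
  rw [hTcl, Subgroup.card_top] at h7
  rw [hker, h4, ← hS]
  exact h7.trans (Nat.pow_le_pow_right hp.pos Finset.card_image_le)

/-- A `q`-element of `N_G(P)` acting nontrivially on the abelian Sylow `p`-subgroup `P` forces
`q ∣ p ^ i - 1` for some `1 ≤ i ≤ rank P`. -/
theorem abelian_sylow_aut {G : Type*} [Group G] [Finite G] {p : ℕ} [Fact p.Prime] (P : Sylow p G)
    (hab : ∀ x ∈ (P : Subgroup G), ∀ y ∈ (P : Subgroup G), x * y = y * x) (b : G)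
    (hb : b ∈ Subgroup.normalizer ((P : Subgroup G) : Set G)) (q : ℕ) (hq : q.Prime) (hqp : q ≠ p)
    (hbq : ∃ j, orderOf b = q ^ j) (hnc : ∃ u ∈ (P : Subgroup G), b * u * b⁻¹ ≠ u) :
    ∃ i, 1 ≤ i ∧ i ≤ Group.rank ↥(P : Subgroup G) ∧ q ∣ p ^ i - 1 := by
  classical
  have hp : p.Prime := Fact.out
  haveI : Fact q.Prime := ⟨hq⟩
  obtain ⟨j, hj⟩ := hbq
  let V : Subgroup G :=
    { carrier := {u | u ∈ (P : Subgroup G) ∧ u ^ p = 1}
      mul_mem' := by
        rintro u v ⟨hu, hu1⟩ ⟨hv, hv1⟩
        refine ⟨Subgroup.mul_mem _ hu hv, ?_⟩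
        have hc : Commute u v := hab u hu v hv
        rw [hc.mul_pow, hu1, hv1, mul_one]
      one_mem' := ⟨Subgroup.one_mem _, one_pow p⟩
      inv_mem' := by
        rintro u ⟨hu, hu1⟩
        exact ⟨Subgroup.inv_mem _ hu, by rw [inv_pow, hu1, inv_one]⟩ }
  have hVP : V ≤ (P : Subgroup G) := fun u hu => hu.1
  have hbV : b ∈ Subgroup.normalizer (V : Set G) := by
    apply mem_normalizer_of_conj_mem
    rintro v ⟨hv, hv1⟩
    exact ⟨(Subgroup.mem_normalizer_iff.mp hb v).mp hv, by rw [conj_pow, hv1]; simp⟩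
  have hA : IsPGroup q (Subgroup.zpowers b) := IsPGroup.of_card (by rw [Nat.card_zpowers, hj])
  have hmod := Helper7.card_modEq_card_inf_centralizer q (Subgroup.zpowers b) V hA
    (Subgroup.zpowers_le.mpr hbV)
  have hcopb : (orderOf b).Coprime p := by
    rw [hj]
    exact Nat.Coprime.pow_left j ((Nat.coprime_primes hq hp).mpr hqp)
  -- the fixed points are a proper subgroup
  have hFixne : V ⊓ Subgroup.centralizer ((Subgroup.zpowers b : Subgroup G) : Set G) ≠ V := by
    intro hFix
    have hVc : ∀ v ∈ V, b * v * b⁻¹ = v := by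
      intro v hv
      have h1 : v ∈ V ⊓ Subgroup.centralizer ((Subgroup.zpowers b : Subgroup G) : Set G) := by
        rw [hFix]; exact hv
      have h2 := Subgroup.mem_centralizer_iff.mp h1.2 b (Subgroup.mem_zpowers b)
      rw [h2]; group
    have hall : ∀ k : ℕ, ∀ u ∈ (P : Subgroup G), u ^ p ^ k = 1 → b * u * b⁻¹ = u := by
      intro k
      induction k with
      | zero =>
        intro u _ hu
        rw [pow_zero, pow_one] at hu
        rw [hu]; group
      | succ k ih =>
        intro u hu huk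
        have hup : b * u ^ p * b⁻¹ = u ^ p :=
          ih (u ^ p) (Subgroup.pow_mem _ hu p) (by rw [← pow_mul, ← pow_succ']; exact huk)
        have hbu : b * u * b⁻¹ ∈ (P : Subgroup G) := (Subgroup.mem_normalizer_iff.mp hb u).mp hu
        have hwV : b * u * b⁻¹ * u⁻¹ ∈ V := by
          refine ⟨Subgroup.mul_mem _ hbu (Subgroup.inv_mem _ hu), ?_⟩
          have hc : Commute (b * u * b⁻¹) u⁻¹ := hab _ hbu _ (Subgroup.inv_mem _ hu)
          rw [hc.mul_pow, conj_pow, hup, inv_pow, mul_inv_cancel]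
        have hw := hVc _ hwV
        have hiter : ∀ m : ℕ, b ^ m * u * (b ^ m)⁻¹ = (b * u * b⁻¹ * u⁻¹) ^ m * u := by
          intro m
          induction m with
          | zero => simp
          | succ m ihm =>
            have e : b ^ (m + 1) * u * (b ^ (m + 1))⁻¹ = b * (b ^ m * u * (b ^ m)⁻¹) * b⁻¹ := by
              rw [pow_succ']; group
            rw [e, ihm]
            have e2 : b * ((b * u * b⁻¹ * u⁻¹) ^ m * u) * b⁻¹ =
                (b * (b * u * b⁻¹ * u⁻¹) * b⁻¹) ^ m * (b * u * b⁻¹) := by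
              rw [conj_pow]; group
            rw [e2, hw, pow_succ]
            group
        have h3 := hiter (orderOf b)
        rw [pow_orderOf_eq_one] at h3
        have h4 : (b * u * b⁻¹ * u⁻¹) ^ orderOf b = 1 := by
          have : (1 : G) * u * (1 : G)⁻¹ = u := by group
          rw [this] at h3
          exact (mul_eq_right (a := (b * u * b⁻¹ * u⁻¹) ^ orderOf b) (b := u)).mp h3.symm
        have h5 : b * u * b⁻¹ * u⁻¹ = 1 := by
          have h6 : b * u * b⁻¹ * u⁻¹ ∈ (⊥ : Subgroup G) :=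
            mem_of_pow_mem_of_coprime hcopb (by rw [h4]; exact Subgroup.one_mem _)
              (by rw [hwV.2]; exact Subgroup.one_mem _)
          exact Subgroup.mem_bot.mp h6
        exact mul_inv_eq_one.mp h5
    obtain ⟨u, hu, hne⟩ := hnc
    obtain ⟨k, hk⟩ := P.isPGroup' ⟨u, hu⟩
    apply hne
    apply hall k u hu
    have := congrArg Subtype.val hk
    simpa using this
  have hVp : IsPGroup p V := P.isPGroup'.to_le hVP
  have hFp : IsPGroup p ↥(V ⊓ Subgroup.centralizer ((Subgroup.zpowers b : Subgroup G) : Set G)) :=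
    hVp.to_le inf_le_left
  obtain ⟨r, hr⟩ := hVp.exists_card_eq
  obtain ⟨s, hs⟩ := hFp.exists_card_eq
  have hlt : Nat.card ↥(V ⊓ Subgroup.centralizer ((Subgroup.zpowers b : Subgroup G) : Set G)) <
      Nat.card V := card_lt_card_of_lt (lt_of_le_of_ne inf_le_left hFixne)
  rw [hr, hs] at hlt hmod
  have hsr : s < r := (Nat.pow_lt_pow_iff_right hp.one_lt).mp hlt
  have hdvd : q ∣ p ^ r - p ^ s := (Nat.modEq_iff_dvd' hlt.le).mp hmod.symm
  have hfac : p ^ r - p ^ s = p ^ s * (p ^ (r - s) - 1) := by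
    have e : p ^ r = p ^ s * p ^ (r - s) := by rw [← pow_add]; congr 1; omega
    rw [e, Nat.mul_sub, mul_one]
  rw [hfac] at hdvd
  have hdvd2 : q ∣ p ^ (r - s) - 1 :=
    (Nat.Coprime.pow_right s ((Nat.coprime_primes hq hp).mpr hqp)).dvd_of_dvd_mul_left hdvd
  -- r ≤ rank
  have hVcard : Nat.card V = Nat.card {a : ↥(P : Subgroup G) // a ^ p = 1} := by
    apply Nat.card_congr
    exact
      { toFun := fun u => ⟨⟨(u : G), u.2.1⟩, Subtype.ext (by simpa using u.2.2)⟩
        invFun := fun a => ⟨((a : ↥(P : Subgroup G)) : G), (a : ↥(P : Subgroup G)).2, by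
          have := congrArg Subtype.val a.2
          simpa using this⟩
        left_inv := fun u => rfl
        right_inv := fun a => rfl }
  have hrank := card_omega_le (A := ↥(P : Subgroup G))
    (fun a b => Subtype.ext (hab a a.2 b b.2)) hp
  rw [← hVcard, hr] at hrank
  have hr' : r ≤ Group.rank ↥(P : Subgroup G) := (Nat.pow_le_pow_iff_right hp.one_lt).mp hrank
  exact ⟨r - s, by omega, by omega, hdvd2⟩

/-- if the elements of prime power order (for primes `≠ p`) of `N_G(P)` centralize `P`, so do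
all `p'`-elements -/
theorem centralize_of_prime_power {G : Type*} [Group G] [Finite G] {p : ℕ} (P : Subgroup G)
    (hpp : ∀ b ∈ Subgroup.normalizer (P : Set G), ∀ q : ℕ, q.Prime → q ≠ p →
      (∃ j, orderOf b = q ^ j) → b ∈ Subgroup.centralizer (P : Set G)) :
    ∀ (m : ℕ) (b : G), b ∈ Subgroup.normalizer (P : Set G) → orderOf b = m → m.Coprime p →
      b ∈ Subgroup.centralizer (P : Set G) := by
  intro m
  induction m using Nat.strong_induction_on with
  | _ m ih =>
  intro b hb hm hcop
  by_cases hm1 : m = 1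
  · rw [hm1, orderOf_eq_one_iff] at hm
    rw [hm]; exact Subgroup.one_mem _
  have hm0 : m ≠ 0 := by rw [← hm]; exact (orderOf_pos b).ne'
  have hq : (m.minFac).Prime := Nat.minFac_prime hm1
  set q := m.minFac with hqdef
  have hqm : q ∣ m := Nat.minFac_dvd m
  have hqp : q ≠ p := by
    rintro rfl
    have := Nat.Coprime.eq_one_of_dvd hcop.symm hqm
    exact hq.one_lt.ne' this
  set j := m.factorization q with hjdef
  have hj1 : 0 < j := Nat.Prime.factorization_pos_of_dvd hq hm0 hqm
  have hmm : q ^ j * (m / q ^ j) = m := Nat.ordProj_mul_ordCompl_eq_self m q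
  have hcop2 : (m / q ^ j).Coprime (q ^ j) :=
    Nat.Coprime.pow_right j (Nat.coprime_ordCompl hq hm0).symm
  have hb1 : b ^ (m / q ^ j) ∈ Subgroup.centralizer (P : Set G) := by
    apply hpp _ (Subgroup.pow_mem _ hb _) q hq hqp
    have h1 : (b ^ (m / q ^ j)) ^ q ^ j = 1 := by
      rw [← pow_mul, mul_comm, hmm, ← hm, pow_orderOf_eq_one]
    obtain ⟨i, -, hi⟩ := (Nat.dvd_prime_pow hq).mp (orderOf_dvd_of_pow_eq_one h1)
    exact ⟨i, hi⟩
  have hb2 : b ^ q ^ j ∈ Subgroup.centralizer (P : Set G) := by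
    have h1 : (b ^ q ^ j) ^ (m / q ^ j) = 1 := by
      rw [← pow_mul, hmm, ← hm, pow_orderOf_eq_one]
    have h2 : orderOf (b ^ q ^ j) ∣ m / q ^ j := orderOf_dvd_of_pow_eq_one h1
    have hpos : 0 < m / q ^ j := by
      rcases Nat.eq_zero_or_pos (m / q ^ j) with h | h
      · rw [h, mul_zero] at hmm; exact absurd hmm.symm hm0
      · exact h
    have h3 : orderOf (b ^ q ^ j) < m := by
      have h4 : orderOf (b ^ q ^ j) ≤ m / q ^ j := Nat.le_of_dvd hpos h2
      have h5 : 2 ≤ q ^ j := by
        calc 2 ≤ q := hq.two_le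
          _ = q ^ 1 := (pow_one q).symm
          _ ≤ q ^ j := Nat.pow_le_pow_right hq.pos hj1
      nlinarith
    exact ih _ h3 _ (Subgroup.pow_mem _ hb _) rfl
      (Nat.Coprime.coprime_dvd_left (h2.trans (Dvd.intro_left _ hmm)) hcop)
  exact mem_of_pow_mem_of_coprime hcop2 hb1 hb2

/-- abelian Sylow `p`-subgroup `P` such that no prime `q ≠ p` dividing `|G|` divides `p ^ i - 1`
for `1 ≤ i ≤ rank P`: then `N_G(P) ≤ C_G(P)`. -/
theorem normalizer_le_centralizer_of_abelian {G : Type*} [Group G] [Finite G] {p : ℕ}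
    [Fact p.Prime] (P : Sylow p G)
    (hab : ∀ x ∈ (P : Subgroup G), ∀ y ∈ (P : Subgroup G), x * y = y * x)
    (hq : ∀ q : ℕ, q.Prime → q ≠ p → q ∣ Nat.card G → ∀ i, 1 ≤ i →
      i ≤ Group.rank ↥(P : Subgroup G) → ¬ q ∣ p ^ i - 1) :
    Subgroup.normalizer ((P : Subgroup G) : Set G) ≤
      Subgroup.centralizer ((P : Subgroup G) : Set G) := by
  have hpp : ∀ b ∈ Subgroup.normalizer ((P : Subgroup G) : Set G), ∀ q : ℕ, q.Prime → q ≠ p →
      (∃ j, orderOf b = q ^ j) → b ∈ Subgroup.centralizer ((P : Subgroup G) : Set G) := by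
    intro b hb q hqp hne hj
    by_contra hcon
    have hnc : ∃ u ∈ (P : Subgroup G), b * u * b⁻¹ ≠ u := by
      by_contra hno
      push Not at hno
      apply hcon
      rw [Subgroup.mem_centralizer_iff]
      intro u hu
      have h1 := hno u hu
      have h2 := congrArg (fun z => z * b) h1
      simp only [inv_mul_cancel_right] at h2
      exact h2.symm
    obtain ⟨i, hi1, hi2, hdvd⟩ := abelian_sylow_aut P hab b hb q hqp hne hj hnc
    obtain ⟨j, hj⟩ := hj
    have hqG : q ∣ Nat.card G := by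
      have hj0 : j ≠ 0 := by
        rintro rfl
        rw [pow_zero, orderOf_eq_one_iff] at hj
        obtain ⟨u, hu, hu2⟩ := hnc
        apply hu2
        rw [hj]; simp
      have h1 : q ∣ orderOf b := by rw [hj]; exact dvd_pow_self q hj0
      exact h1.trans (orderOf_dvd_natCard b)
    exact hq q hqp hne hqG i hi1 hi2 hdvd
  have h2 := centralize_of_prime_power (p := p) (P : Subgroup G) hpp
  apply normalizer_le_centralizer_of_star P hab
  intro b hb hcop x hx
  have h3 := h2 (orderOf b) b hb rfl hcop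
  rw [Subgroup.mem_centralizer_iff] at h3
  rw [← h3 x hx]; simp

end Cfsg.Agent.Lib.Helper6
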