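import Mathlib

set_option autoImplicit false

namespace Cfsg.Agent.Lib.Helper6

open Polynomial in
theorem poly_geom_char (p : ℕ) [Fact p.Prime] (k : ℕ) :
    (∑ i ∈ Finset.range (p ^ k), (X : (ZMod p)[X]) ^ i) = (X - 1) ^ (p ^ k - 1) := by
  have h1 : (X - 1 : (ZMod p)[X]) * ∑ i ∈ Finset.range (p ^ k), (X : (ZMod p)[X]) ^ i
      = (X - 1) * (X - 1) ^ (p ^ k - 1) := by
    rw [mul_geom_sum, ← pow_succ',
      Nat.sub_add_cancel (Nat.one_le_pow _ _ (Fact.out : p.Prime).pos), sub_pow_char_pow, one_pow]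
  have h2 : (X - 1 : (ZMod p)[X]) ≠ 0 := by
    simpa using X_sub_C_ne_zero (1 : ZMod p)
  exact mul_left_cancel₀ h2 h1

theorem lin_geom_zero (p : ℕ) [Fact p.Prime] {V : Type*} [AddCommGroup V] [Module (ZMod p) V]
    [FiniteDimensional (ZMod p) V] (ψ : Module.End (ZMod p) V) (r k : ℕ) (h1 : ψ ^ (p ^ r) = 1)
    (hk : Module.finrank (ZMod p) V < p ^ k) :
    ∑ i ∈ Finset.range (p ^ k), ψ ^ i = 0 := by
  have hd : (ψ - 1) ^ (p ^ r) = 0 := by
    have h2 := congrArg (Polynomial.aeval ψ)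
      (sub_pow_char_pow (p := p) (n := r) (Polynomial.X : Polynomial (ZMod p)) 1)
    simp only [map_pow, map_sub, Polynomial.aeval_X, map_one, one_pow] at h2
    rw [h2, h1, sub_self]
  have hf : (ψ - 1) ^ Module.finrank (ZMod p) V = 0 := by
    have h2 := Module.End.ker_pow_le_ker_pow_finrank (ψ - 1) (p ^ r)
    rw [hd, LinearMap.ker_zero, top_le_iff] at h2
    exact LinearMap.ker_eq_top.1 h2
  have hs := congrArg (Polynomial.aeval ψ) (poly_geom_char p k)
  simp only [map_sum, map_pow, map_sub, Polynomial.aeval_X, map_one] at hs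
  rw [hs]
  have e : p ^ k - 1 = Module.finrank (ZMod p) V + (p ^ k - 1 - Module.finrank (ZMod p) V) := by
    omega
  rw [e, pow_add, hf, zero_mul]

theorem two_pow_bound : ∀ t : ℕ, t + 4 ≤ 2 ^ (t + 2) := by
  intro t
  induction t with
  | zero => norm_num
  | succ t ih => rw [pow_succ]; omega

theorem three_pow_bound : ∀ t : ℕ, t + 3 ≤ 3 ^ (t + 1) := by
  intro t
  induction t with
  | zero => norm_num
  | succ t ih => rw [pow_succ]; omega

theorem add_geom (p : ℕ) [Fact p.Prime] {V : Type*} [AddCommGroup V] [Module (ZMod p) V]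
    [Finite V] (f : V →+ V) (r k m : ℕ) (hcard : Nat.card V = p ^ m)
    (hf : ∀ x, f^[p ^ r] x = x) (hk : m < p ^ k) (a : V) :
    ∃ s : ℕ → V, s 0 = 0 ∧ (∀ n, s (n + 1) = f (s n) + a) ∧ s (p ^ k) = 0 := by
  classical
  obtain ⟨ψ, hψ⟩ : ∃ ψ : Module.End (ZMod p) V, ∀ x : V, ψ x = f x :=
    ⟨AddMonoidHom.toZModLinearMap p f, fun x => rfl⟩
  have hpow : ∀ (n : ℕ) (x : V), (ψ ^ n) x = f^[n] x := by
    intro n
    induction n with
    | zero => intro x; simp
    | succ n ih =>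
      intro x
      rw [pow_succ', Module.End.mul_apply, hψ, ih, Function.iterate_succ_apply']
  have hψ1 : ψ ^ (p ^ r) = 1 := by
    refine LinearMap.ext fun x => ?_
    rw [hpow, hf, Module.End.one_apply]
  haveI : Fintype V := Fintype.ofFinite _
  have hfr : Module.finrank (ZMod p) V = m := by
    have h1 := Module.card_eq_pow_finrank (K := ZMod p) (V := V)
    rw [ZMod.card, ← Nat.card_eq_fintype_card, hcard] at h1
    exact (Nat.pow_right_injective (Fact.out : p.Prime).two_le h1).symm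
  have hT := lin_geom_zero p ψ r k hψ1 (by rw [hfr]; exact hk)
  refine ⟨fun n => (∑ i ∈ Finset.range n, ψ ^ i) a, ?_, ?_, ?_⟩
  · simp
  · intro n
    have e1 : (∑ i ∈ Finset.range (n + 1), ψ ^ i) = ψ * (∑ i ∈ Finset.range n, ψ ^ i) + 1 := by
      rw [Finset.sum_range_succ', pow_zero, Finset.mul_sum]
      congr 1
      exact Finset.sum_congr rfl (fun i _ => pow_succ' ψ i)
    show (∑ i ∈ Finset.range (n + 1), ψ ^ i) a = _
    rw [e1, LinearMap.add_apply, Module.End.mul_apply, Module.End.one_apply, hψ]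
  · show (∑ i ∈ Finset.range (p ^ k), ψ ^ i) a = 0
    rw [hT]
    rfl

theorem comm_geom {A : Type*} [CommGroup A] [Finite A] (p : ℕ) [Fact p.Prime]
    (hexp : ∀ a : A, a ^ p = 1) (φ : A →* A) (r k m : ℕ) (hcard : Nat.card A = p ^ m)
    (hφ : ∀ a, φ^[p ^ r] a = a) (hk : m < p ^ k) (a : A) :
    ∃ s : ℕ → A, s 0 = 1 ∧ (∀ n, s (n + 1) = φ (s n) * a) ∧ s (p ^ k) = 1 := by
  have hfin : Finite (Additive A) := inferInstanceAs (Finite A)
  have hiter : ∀ (n : ℕ) (x : Additive A),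
      (MonoidHom.toAdditive φ)^[n] x = Additive.ofMul (φ^[n] (Additive.toMul x)) := by
    intro n
    induction n with
    | zero => intro x; rfl
    | succ n ih =>
      intro x
      rw [Function.iterate_succ_apply', ih, Function.iterate_succ_apply']
      rfl
  obtain ⟨s, h0, h1, h2⟩ := @add_geom p _ (Additive A) _
    (AddCommGroup.zmodModule (n := p) (fun x => congrArg Additive.ofMul (hexp (Additive.toMul x))))
    hfin (MonoidHom.toAdditive φ) r k m hcard
    (fun x => by rw [hiter, hφ]; rfl) hk (Additive.ofMul a)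
  refine ⟨fun n => Additive.toMul (s n), ?_, ?_, ?_⟩
  · show Additive.toMul (s 0) = 1
    rw [h0]; rfl
  · intro n
    show Additive.toMul (s (n + 1)) = _
    rw [h1]; rfl
  · show Additive.toMul (s (p ^ k)) = 1
    rw [h2]; rfl

theorem comm_geom' {A : Type*} [Group A] [Finite A] (hcomm : ∀ a b : A, a * b = b * a)
    (p : ℕ) [Fact p.Prime]
    (hexp : ∀ a : A, a ^ p = 1) (φ : A →* A) (r k m : ℕ) (hcard : Nat.card A = p ^ m)
    (hφ : ∀ a, φ^[p ^ r] a = a) (hk : m < p ^ k) (a : A) :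
    ∃ s : ℕ → A, s 0 = 1 ∧ (∀ n, s (n + 1) = φ (s n) * a) ∧ s (p ^ k) = 1 :=
  @comm_geom A { ‹Group A› with mul_comm := hcomm } _ p _ hexp φ r k m hcard hφ hk a

theorem affine_order {G : Type*} [Group G] [Finite G] {Ω : Type*} [Fintype Ω] [MulAction G Ω]
    [FaithfulSMul G Ω] (p m : ℕ) (hp : p.Prime) (hcard : Fintype.card Ω = p ^ m)
    (N : Subgroup G) [N.Normal] (hNc : IsMulCommutative N) (hNp : ∀ n ∈ N, n ^ p = 1)
    (hNtr : MulAction.IsPretransitive N Ω) (hNreg : ∀ ω : Ω, MulAction.stabilizer N ω = ⊥)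
    (g : G) (r : ℕ) (hr : 1 ≤ r) (hg : orderOf g = p ^ r) : p ^ (r - 1) ≤ m := by
  classical
  haveI : Fact p.Prime := ⟨hp⟩
  by_contra hlt
  push Not at hlt
  let cj : N →* N := (MulAut.conjNormal g : MulAut N).toMonoidHom
  have hcj : ∀ n : N, ((cj n : N) : G) = g * n * g⁻¹ := fun n => rfl
  have hpow : ∀ (k : ℕ) (n : N), ((cj^[k] n : N) : G) = g ^ k * (n : G) * (g ^ k)⁻¹ := by
    intro k
    induction k with
    | zero => intro n; simp
    | succ k ih =>
      intro n
      rw [Function.iterate_succ_apply', hcj, ih]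
      simp only [pow_succ', mul_inv_rev, mul_assoc]
  have hgp : g ^ (p ^ r) = 1 := by rw [← hg]; exact pow_orderOf_eq_one g
  have hφ : ∀ n : N, cj^[p ^ r] n = n := by
    intro n
    apply Subtype.ext
    rw [hpow, hgp]
    simp
  have hpos : 0 < Fintype.card Ω := by rw [hcard]; exact pow_pos hp.pos m
  obtain ⟨ω₀⟩ := Fintype.card_pos_iff.1 hpos
  have hcN : Nat.card N = p ^ m := by
    have e : N ≃ Ω := Equiv.ofBijective (fun n : N => n • ω₀) ⟨by
      intro a b hab
      have hab' : a • ω₀ = b • ω₀ := hab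
      have h1 : (b⁻¹ * a) • ω₀ = ω₀ := by
        rw [mul_smul, hab', inv_smul_smul]
      have h2 : b⁻¹ * a ∈ MulAction.stabilizer N ω₀ := h1
      rw [hNreg ω₀, Subgroup.mem_bot] at h2
      exact (inv_mul_eq_one.1 h2).symm, fun ω => MulAction.exists_smul_eq N ω₀ ω⟩
    rw [Nat.card_congr e, Nat.card_eq_fintype_card, hcard]
  have key : ∀ ω : Ω, g ^ (p ^ (r - 1)) • ω = ω := by
    intro ω
    obtain ⟨a, ha⟩ := MulAction.exists_smul_eq N ω (g • ω)
    have ha' : (a : G) • ω = g • ω := ha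
    obtain ⟨s, hs0, hs1, hs2⟩ := comm_geom' (A := N) (fun x y => hNc.is_comm.comm x y) p
      (fun x => Subtype.ext (by simpa using hNp _ x.2)) cj r (r - 1) m hcN hφ hlt a
    have hit : ∀ k : ℕ, g ^ k • ω = ((s k : N) : G) • ω := by
      intro k
      induction k with
      | zero => rw [hs0]; simp
      | succ k ih =>
        rw [hs1, Subgroup.coe_mul, hcj, mul_smul, ha', pow_succ', mul_smul, ih]
        simp only [mul_smul, inv_smul_smul]
    rw [hit, hs2]
    simp
  have hone : g ^ (p ^ (r - 1)) = 1 :=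
    FaithfulSMul.eq_of_smul_eq_smul (α := Ω) (fun ω => by rw [key ω, one_smul])
  have hdvd := orderOf_dvd_of_pow_eq_one hone
  rw [hg] at hdvd
  have hle := Nat.le_of_dvd (pow_pos hp.pos _) hdvd
  have hlt2 : p ^ (r - 1) < p ^ r := Nat.pow_lt_pow_right hp.one_lt (by omega)
  omega

end Cfsg.Agent.Lib.Helper6
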