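import Mathlib
import Cfsg.Agent.Lib.Lead.Block3
import Cfsg.Agent.Lib.Lead.Block8
import Cfsg.Agent.Lib.Helper8.Codeg8
import Cfsg.Agent.Lib.Helper6.ICC

set_option autoImplicit false

/-! The kernel of a block is the largest normal `p'`-subgroup in the kernel of each member. -/

namespace Cfsg.Agent.Lib.Helper6

open Cfsg.Agent.Lib.Lead Cfsg.Agent.Lib.Helper8

/-- a right-`K`-invariant function sums to `|K|` times a partial sum -/
theorem sum_coset_invariant {G : Type*} [Group G] [Fintype G] (K : Subgroup G) (f : G → ℂ)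
    (hf : ∀ y : G, ∀ k ∈ K, f (y * k) = f y) :
    ∃ t : Finset G, ∑ y : G, f y = (Nat.card K : ℂ) * ∑ y ∈ t, f y := by
  classical
  haveI : Fintype (G ⧸ K) := Fintype.ofFinite _
  refine ⟨Finset.univ.image (fun q : G ⧸ K => q.out), ?_⟩
  rw [← Finset.sum_fiberwise (Finset.univ) (QuotientGroup.mk : G → G ⧸ K) f]
  rw [Finset.sum_image (by
    intro q _ q' _ h
    have := congrArg (QuotientGroup.mk : G → G ⧸ K) h
    simpa using this), Finset.mul_sum]
  apply Finset.sum_congr rfl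
  intro q _
  have h1 : ∀ y ∈ Finset.univ.filter (fun y : G => (QuotientGroup.mk y : G ⧸ K) = q),
      f y = f q.out := by
    intro y hy
    have hy' : (QuotientGroup.mk y : G ⧸ K) = q := (Finset.mem_filter.mp hy).2
    have h2 : q.out⁻¹ * y ∈ K := by
      rw [← QuotientGroup.eq, QuotientGroup.out_eq', hy']
    have h3 := hf q.out _ h2
    rw [mul_inv_cancel_left] at h3
    exact h3
  rw [Finset.sum_congr rfl h1, Finset.sum_const, nsmul_eq_mul]
  congr 1
  have hc : Nat.card {y : G // (QuotientGroup.mk y : G ⧸ K) = q} = Nat.card K := by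
    have e := QuotientGroup.preimageMkEquivSubgroupProdSet K ({q} : Set (G ⧸ K))
    have h3 := Nat.card_congr e
    rw [Nat.card_prod] at h3
    have h4 : Nat.card (({q} : Set (G ⧸ K)) : Type _) = 1 := by simp
    rw [h4, mul_one] at h3
    exact h3
  rw [← hc, Nat.card_eq_fintype_card, Fintype.card_subtype]

/-- a character with `N` in its kernel lies over the trivial character of `N` -/
theorem inner_one_of_trivial {G : Type*} [Group G] [Fintype G] (N : Subgroup G) [Fintype N]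
    (χ : Cfsg.IrrCharacter G) (h : ∀ g ∈ N, χ.1 g = χ.1 1) :
    Cfsg.classInner (fun n : N => χ.1 n) (irrOne N).1 ≠ 0 := by
  unfold Cfsg.classInner
  have e : ∑ g : N, χ.1 g * (starRingEnd ℂ) ((irrOne N).1 g) = (Nat.card N : ℂ) * χ.1 1 := by
    have h2 : ∀ g : N, χ.1 g * (starRingEnd ℂ) ((irrOne N).1 g) = χ.1 1 := by
      intro g
      have e1 : (irrOne N).1 g = 1 := rfl
      rw [e1, map_one, mul_one, h g g.2]
    rw [Finset.sum_congr rfl (fun g _ => h2 g), Finset.sum_const, Finset.card_univ, nsmul_eq_mul,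
      Nat.card_eq_fintype_card]
  rw [e, ← mul_assoc, inv_mul_cancel₀ (card_ne_zero_C (G := N)), one_mul]
  exact irr_deg_ne_zero χ

/-- a normal `p'`-subgroup in the kernel of one member of a block is in the kernel of all -/
theorem pprime_ker_block {G : Type*} [Group G] [Finite G] (p : ℕ) [Fact p.Prime]
    (M : Ideal Cfsg.AlgInt) (hM : Cfsg.IsPModular p M) (χ ψ : Cfsg.IrrCharacter G)
    (hsame : Cfsg.SameBlock M χ.1 ψ.1) (N : Subgroup G) [hNn : N.Normal]
    (hNp : ¬ p ∣ Nat.card N) (hNχ : ∀ g ∈ N, χ.1 g = χ.1 1) :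
    ∀ g ∈ N, ψ.1 g = ψ.1 1 := by
  classical
  haveI : Fintype G := Fintype.ofFinite G
  haveI : Fintype N := Fintype.ofFinite N
  have hp : p.Prime := Fact.out
  have hmax := hM.2.1
  have hcop : (Nat.card N).Coprime p := ((Nat.Prime.coprime_iff_not_dvd hp).mpr hNp).symm
  have hgood := orbit_idem_specGood N hM hcop (irrOne N)
  have h1 := specGood_congr hmax hgood hsame
  beta_reduce at h1
  have hχ1 := inner_one_of_trivial N χ hNχ
  have hψ1 : Cfsg.classInner (fun n : N => ψ.1 n) (irrOne N).1 ≠ 0 := by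
    by_contra hψ0
    rw [if_pos hχ1, if_neg (not_not.mpr hψ0), sub_zero] at h1
    exact not_mli_one hmax h1
  have h1G := inner_one_of_trivial N (irrOne G) (fun g _ => rfl)
  intro n hn
  have h2 := cliff_prop N ψ (irrOne G) (irrOne N) hψ1 h1G ⟨n, hn⟩
  have e1 : (irrOne G).1 1 = 1 := rfl
  have e2 : (irrOne G).1 ((⟨n, hn⟩ : N) : G) = 1 := rfl
  rw [e1, e2, one_mul, mul_one] at h2
  exact h2

theorem block_ker_thm {G : Type*} [Group G] [Finite G] (p : ℕ) [Fact p.Prime]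
    (M : Ideal Cfsg.AlgInt) (hM : Cfsg.IsPModular p M) (B : Set (Cfsg.IrrCharacter G))
    (hB : Cfsg.IsPBlock M B) (χ : Cfsg.IrrCharacter G) (hχ : χ ∈ B) :
    ∃ K : Subgroup G, K.Normal ∧ (K : Set G) = Cfsg.blockKer B ∧ ¬ p ∣ Nat.card K ∧
      (∀ g ∈ K, (χ : G → ℂ) g = (χ : G → ℂ) 1) ∧
      ∀ N : Subgroup G, N.Normal → ¬ p ∣ Nat.card N →
        (∀ g ∈ N, (χ : G → ℂ) g = (χ : G → ℂ) 1) → N ≤ K := by
  classical
  haveI : Fintype G := Fintype.ofFinite G
  haveI : Fintype (Cfsg.IrrCharacter G) := Fintype.ofFinite _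
  have hmax := hM.2.1
  choose kerS hkerN hkerS using fun χ : Cfsg.IrrCharacter G => exists_ker_subgroup χ
  let K : Subgroup G := ⨅ χ : B, kerS χ.1
  have hKmem : ∀ g, g ∈ K ↔ ∀ χ ∈ B, χ.1 g = χ.1 1 := by
    intro g
    simp only [K, Subgroup.mem_iInf, hkerS]
    constructor
    · intro h χ hχ; exact h ⟨χ, hχ⟩
    · intro h χ; exact h χ.1 χ.2
  haveI hKn : K.Normal := Subgroup.normal_iInf_normal (fun χ => hkerN χ.1)
  have hos := fun g => osima_thm p M hM B hB g
  -- invariance of the coefficients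
  have hker : ∀ ψ ∈ B, ∀ g : G, ∀ k ∈ K, ψ.1 (g * k) = ψ.1 g := by
    intro ψ hψ g k hk
    have hk1 := (hKmem k).mp hk ψ hψ
    obtain ⟨n, ρ, hρ, hρχ⟩ := ψ.2
    rw [← hρχ] at hk1 ⊢
    rw [Representation.char_one] at hk1
    have hk2 : ρ k = 1 := (char_eq_deg_iff ρ k).mp hk1
    show LinearMap.trace ℂ _ (ρ (g * k)) = LinearMap.trace ℂ _ (ρ g)
    rw [map_mul, hk2, mul_one]
  have hinv : ∀ g : G, ∀ k ∈ K, Cfsg.blockCoeff B (g * k) = Cfsg.blockCoeff B g := by
    intro g k hk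
    unfold Cfsg.blockCoeff
    congr 1
    apply finsum_mem_congr rfl
    intro ψ hψ
    rw [hker ψ hψ g k hk]
  have hcf := blockCoeff_classFn B
  have hinv' : ∀ g : G, ∀ k ∈ K, Cfsg.blockCoeff B (k * g) = Cfsg.blockCoeff B g := by
    intro g k hk
    have e : k * g = g * (g⁻¹ * k * g⁻¹⁻¹) := by group
    rw [e]
    exact hinv g _ (hKn.conj_mem k hk g⁻¹)
  have haa : cconv (fun g => Cfsg.blockCoeff B g) (fun g => Cfsg.blockCoeff B g)
      = fun g => Cfsg.blockCoeff B g := by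
    apply Om_ext (cconv_classFn hcf hcf) hcf
    intro ψ
    rw [Om_cconv ψ hcf hcf, Om_blockCoeff]
    by_cases hψ : ψ ∈ B
    · rw [if_pos hψ, mul_one]
    · rw [if_neg hψ, mul_zero]
  have hpK : ¬ p ∣ Nat.card K := by
    intro hdvd
    obtain ⟨g₀, hg1, hg2, hg3⟩ := exists_defect_class_thm p M hM B hB
    apply hg2
    have e1 : Cfsg.blockCoeff B g₀ = ∑ y : G, Cfsg.blockCoeff B y * Cfsg.blockCoeff B (y⁻¹ * g₀) :=
      (congrFun haa g₀).symm
    obtain ⟨t, ht⟩ := sum_coset_invariant K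
      (fun y => Cfsg.blockCoeff B y * Cfsg.blockCoeff B (y⁻¹ * g₀)) (by
        intro y k hk
        show Cfsg.blockCoeff B (y * k) * Cfsg.blockCoeff B ((y * k)⁻¹ * g₀) =
          Cfsg.blockCoeff B y * Cfsg.blockCoeff B (y⁻¹ * g₀)
        have e2 : (y * k)⁻¹ * g₀ = k⁻¹ * (y⁻¹ * g₀) := by group
        rw [hinv y k hk, e2, hinv' _ _ (K.inv_mem hk)])
    rw [e1, ht, mul_comm]
    exact mli_mul hmax (mlr_sum hmax _ _ (fun y _ => mlr_mul hmax (hos y) (hos _)))
      (mli_natCast_of_dvd hM hdvd)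
  refine ⟨K, hKn, ?_, hpK, fun g hg => (hKmem g).mp hg χ hχ, ?_⟩
  · ext g
    rw [SetLike.mem_coe, hKmem]
    rfl
  · intro N hNn hNp hNχ n hn
    rw [hKmem]
    intro ψ hψ
    haveI := hNn
    obtain ⟨χ₀, rfl⟩ := hB
    have hsame : Cfsg.SameBlock M χ.1 ψ.1 := by
      intro g
      have h1 := mli_sub hmax (hψ g) (hχ g)
      have e : Cfsg.centralChar χ₀.1 g - Cfsg.centralChar ψ.1 g
          - (Cfsg.centralChar χ₀.1 g - Cfsg.centralChar χ.1 g)
          = Cfsg.centralChar χ.1 g - Cfsg.centralChar ψ.1 g := by ring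
      rw [e] at h1
      exact h1
    exact pprime_ker_block p M hM χ ψ hsame N hNp hNχ n hn

end Cfsg.Agent.Lib.Helper6
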