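import Mathlib
import Cfsg.Prelude.Def_Solvable
import Cfsg.Agent.Lib.Lead.Coprime
import Cfsg.Agent.Lib.Lead.Fitting2

set_option autoImplicit false

/-! Equal order pairs `(G, N)`: `o(xn) = o(x)` for all `x ∉ N`, `n ∈ N`. -/

namespace Cfsg.Agent.Lib.Helper6

open Cfsg

variable {G : Type*} [Group G]

/-- a `q`-power order that is also an `r`-power order (`q ≠ r`) is `1` -/
theorem eq_one_of_orderOf_two_primes {q r : ℕ} (hq : q.Prime) (hr : r.Prime) (hqr : q ≠ r) {n : G}
    {b b' : ℕ} (h1 : orderOf n = q ^ b) (h2 : orderOf n = r ^ b') : n = 1 := by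
  rcases Nat.eq_zero_or_pos b with rfl | hb
  · rwa [pow_zero, orderOf_eq_one_iff] at h1
  · exfalso
    have hd : q ∣ r ^ b' := by rw [← h2, h1]; exact dvd_pow_self q hb.ne'
    exact hqr ((Nat.prime_dvd_prime_iff_eq hq hr).mp (hq.dvd_of_dvd_pow hd))

/-- in an equal order pair, the centralizer in `N` of a `q`-element outside `N` is a `q`-group -/
theorem eqOrd_centralizer (N : Subgroup G)
    (heq : ∀ x : G, x ∉ N → ∀ n ∈ N, orderOf (x * n) = orderOf x) {q : ℕ} (hq : q.Prime)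
    {y : G} (hy : y ∉ N) {a : ℕ} (hya : orderOf y = q ^ a) {n : G} (hn : n ∈ N)
    (hcomm : n * y = y * n) : ∃ b : ℕ, orderOf n = q ^ b := by
  have h1 := heq y hy n hn
  have h2 : (y * n) ^ (q ^ a) = 1 := by rw [← hya, ← h1, pow_orderOf_eq_one]
  have hc : Commute y n := hcomm.symm
  rw [hc.mul_pow, ← hya, pow_orderOf_eq_one, one_mul, hya] at h2
  exact ((Nat.dvd_prime_pow hq).mp (orderOf_dvd_of_pow_eq_one h2)).imp (fun j hj => hj.2)

/-- in an equal order pair, if `O_q(G) ≰ N` then `N` is a `q`-group -/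
theorem eqOrd_isPGroup_of_pCore_not_le [Finite G] (N : Subgroup G) [N.Normal]
    (heq : ∀ x : G, x ∉ N → ∀ n ∈ N, orderOf (x * n) = orderOf x) {q : ℕ} (hq : q.Prime)
    {y : G} (hyK : y ∈ pCore q G) (hyN : y ∉ N) : ∀ n ∈ N, ∃ b : ℕ, orderOf n = q ^ b := by
  have hNn : N.Normal := inferInstance
  have hfq : Fact q.Prime := ⟨hq⟩
  have hKp : IsPGroup q (pCore q G) := Cfsg.Agent.Lib.Lead.pCore_isPGroup' q
  have hKn : (pCore q G).Normal := Cfsg.Agent.Lib.Lead.pCore_normal q G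
  intro n hn
  refine ⟨_, Nat.eq_prime_pow_of_unique_prime_dvd (orderOf_pos n).ne' ?_⟩
  intro r hr hrd
  by_contra hrq
  have hso : orderOf (n ^ (orderOf n / r)) = r := orderOf_pow_orderOf_div (orderOf_pos n).ne' hrd
  have hsN : n ^ (orderOf n / r) ∈ N := N.pow_mem hn _
  generalize n ^ (orderOf n / r) = s at hso hsN
  have hfr : Fact r.Prime := ⟨hr⟩
  have hAp : IsPGroup r (Subgroup.zpowers s) :=
    IsPGroup.of_card (n := 1) (by rw [Nat.card_zpowers, hso, pow_one])
  have hAK : Subgroup.zpowers s ≤ Subgroup.normalizer ((pCore q G : Subgroup G) : Set G) :=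
    Subgroup.le_normalizer_of_normal
  obtain ⟨e, he⟩ := IsPGroup.iff_card.mp hKp
  have hcop : (Nat.card (Subgroup.zpowers s)).Coprime (Nat.card (pCore q G)) := by
    rw [Nat.card_zpowers, hso, he]
    exact Nat.Coprime.pow_right e ((Nat.coprime_primes hr hq).mpr hrq)
  have hsolv : Group.IsSolvable (Subgroup.zpowers s) := by
    have := hAp.isNilpotent
    infer_instance
  obtain ⟨d, hd, c, hc, hy⟩ := Cfsg.Agent.Lib.Lead.exists_commutator_mul_centralizer
    (Subgroup.zpowers s) (pCore q G) hAK hcop (Or.inl hsolv) hyK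
  have hAN : Subgroup.zpowers s ≤ N := Subgroup.zpowers_le.mpr hsN
  have hdN : d ∈ N := by
    have hle : ⁅pCore q G, Subgroup.zpowers s⁆ ≤ N := by
      rw [Subgroup.commutator_le]
      intro k _ a ha
      rw [commutatorElement_def]
      have h1 : k * a * k⁻¹ ∈ N := hNn.conj_mem a (hAN ha) k
      exact N.mul_mem h1 (N.inv_mem (hAN ha))
    exact hle hd
  have hcN : c ∉ N := by
    intro hcN
    apply hyN
    rw [hy]; exact N.mul_mem hdN hcN
  obtain ⟨e', he'⟩ := (IsPGroup.iff_orderOf.mp hKp) ⟨c, hc.1⟩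
  rw [Subgroup.orderOf_mk] at he'
  have hsc : s * c = c * s :=
    (Subgroup.mem_centralizer_iff.mp hc.2) s (Subgroup.mem_zpowers s)
  obtain ⟨b, hb⟩ := eqOrd_centralizer N heq hq hcN he' hsN hsc
  have hd : r ∣ q ^ b := by rw [← hb, hso]
  exact hrq ((Nat.prime_dvd_prime_iff_eq hr hq).mp (hr.dvd_of_dvd_pow hd))

end Cfsg.Agent.Lib.Helper6
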