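import Mathlib
import Cfsg.Agent.Lib.Lead.Char15

/-!
Linear characters (homs to `ℂˣ`) of a finite group: orthogonality relations.
-/

set_option autoImplicit false

namespace Cfsg.Agent.Lib.Helper6

open Cfsg.Agent.Lib

/-- the sum of the values of a nontrivial linear character is zero -/
theorem hom_sum_eq_zero {W : Type*} [Group W] [Fintype W] (η : W →* ℂˣ) (h : η ≠ 1) :
    ∑ w : W, (η w : ℂ) = 0 := by
  obtain ⟨w₀, hw₀⟩ : ∃ w₀, η w₀ ≠ 1 := by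
    by_contra hcon
    push_neg at hcon
    exact h (MonoidHom.ext hcon)
  have h1 : ∑ w : W, (η w : ℂ) = (η w₀ : ℂ) * ∑ w : W, (η w : ℂ) := by
    rw [Finset.mul_sum, ← Equiv.sum_comp (Equiv.mulLeft w₀)]
    apply Finset.sum_congr rfl
    intro w _
    simp [map_mul]
  have h2 : ((η w₀ : ℂ) - 1) * ∑ w : W, (η w : ℂ) = 0 := by linear_combination -h1
  rcases mul_eq_zero.mp h2 with h3 | h3
  · exfalso
    apply hw₀
    apply Units.ext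
    rw [Units.val_one]
    linear_combination h3
  · exact h3

theorem hom_sum_one {W : Type*} [Group W] [Fintype W] :
    ∑ w : W, (((1 : W →* ℂˣ) w : ℂˣ) : ℂ) = (Nat.card W : ℂ) := by
  simp [Nat.card_eq_fintype_card]

theorem hom_pow_card {W : Type*} [Group W] [Finite W] (η : W →* ℂˣ) (w : W) :
    (η w : ℂ) ^ Nat.card W = 1 := by
  rw [← Units.val_pow_eq_pow_val, ← map_pow, pow_card_eq_one', map_one, Units.val_one]

theorem hom_norm {W : Type*} [Group W] [Finite W] (η : W →* ℂˣ) (w : W) :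
    ‖(η w : ℂ)‖ = 1 :=
  Complex.norm_eq_one_of_pow_eq_one (hom_pow_card η w) Nat.card_pos.ne'

theorem hom_conj {W : Type*} [Group W] [Finite W] (η : W →* ℂˣ) (w : W) :
    (starRingEnd ℂ) (η w : ℂ) = ((η⁻¹ w : ℂˣ) : ℂ) := by
  rw [MonoidHom.inv_apply, Units.val_inv_eq_inv_val]
  exact (Complex.inv_eq_conj (hom_norm η w)).symm

/-- orthogonality of linear characters, as a plain sum -/
theorem hom_sum_mul_conj {W : Type*} [Group W] [Fintype W] (ω ω' : W →* ℂˣ) :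
    ∑ w : W, (ω w : ℂ) * (starRingEnd ℂ) (ω' w : ℂ)
      = if ω = ω' then (Nat.card W : ℂ) else 0 := by
  have h1 : ∀ w : W, (ω w : ℂ) * (starRingEnd ℂ) (ω' w : ℂ) = (((ω * ω'⁻¹) w : ℂˣ) : ℂ) := by
    intro w
    rw [hom_conj, MonoidHom.mul_apply, Units.val_mul]
  simp only [h1]
  by_cases h : ω = ω'
  · rw [if_pos h, h, show ω' * ω'⁻¹ = 1 from mul_inv_cancel ω']
    exact hom_sum_one
  · rw [if_neg h]
    apply hom_sum_eq_zero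
    intro h2
    exact h (mul_inv_eq_one.mp h2)

/-- orthogonality of linear characters -/
theorem hom_inner {W : Type*} [Group W] [Fintype W] (ω ω' : W →* ℂˣ) :
    Cfsg.classInner (fun w => (ω w : ℂ)) (fun w => (ω' w : ℂ)) = if ω = ω' then 1 else 0 := by
  unfold Cfsg.classInner
  rw [hom_sum_mul_conj]
  have hne : (Nat.card W : ℂ) ≠ 0 := Nat.cast_ne_zero.mpr Nat.card_pos.ne'
  split_ifs
  · exact inv_mul_cancel₀ hne
  · exact mul_zero _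

/-- the function `(1 - φ)(1 - ψ)` attached to two linear characters -/
noncomputable def alphaFn {W : Type*} [Group W] (φ ψ : W →* ℂˣ) : W → ℂ :=
  fun w => 1 - (φ w : ℂ) - (ψ w : ℂ) + (φ w : ℂ) * (ψ w : ℂ)

theorem alphaFn_eq {W : Type*} [Group W] (φ ψ : W →* ℂˣ) :
    alphaFn φ ψ = (fun w => (((1 : W →* ℂˣ) w : ℂˣ) : ℂ)) + (-1 : ℂ) • (fun w => (φ w : ℂ))
      + (-1 : ℂ) • (fun w => (ψ w : ℂ)) + (fun w => (((φ * ψ) w : ℂˣ) : ℂ)) := by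
  funext w
  simp only [alphaFn, Pi.add_apply, Pi.smul_apply, smul_eq_mul, MonoidHom.one_apply,
    Units.val_one, MonoidHom.mul_apply, Units.val_mul]
  ring

/-- inner product of `(1 - φ)(1 - ψ)` with a linear character -/
theorem alpha_inner {W : Type*} [Group W] [Fintype W] (φ ψ η : W →* ℂˣ) :
    Cfsg.classInner (alphaFn φ ψ) (fun w => (η w : ℂ))
      = (if (1 : W →* ℂˣ) = η then (1 : ℂ) else 0) - (if φ = η then (1 : ℂ) else 0)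
        - (if ψ = η then (1 : ℂ) else 0) + (if φ * ψ = η then (1 : ℂ) else 0) := by
  rw [alphaFn_eq, Lead.classInner_add_left, Lead.classInner_add_left, Lead.classInner_add_left,
    Lead.classInner_smul_left, Lead.classInner_smul_left, hom_inner, hom_inner, hom_inner,
    hom_inner]
  ring

/-- inner product of a linear character with `(1 - φ)(1 - ψ)` -/
theorem inner_alpha {W : Type*} [Group W] [Fintype W] (φ ψ η : W →* ℂˣ) :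
    Cfsg.classInner (fun w => (η w : ℂ)) (alphaFn φ ψ)
      = (if (1 : W →* ℂˣ) = η then (1 : ℂ) else 0) - (if φ = η then (1 : ℂ) else 0)
        - (if ψ = η then (1 : ℂ) else 0) + (if φ * ψ = η then (1 : ℂ) else 0) := by
  rw [← Lead.classInner_conj_symm, alpha_inner]
  simp only [map_add, map_sub, apply_ite (starRingEnd ℂ), map_one, map_zero]

/-- a linear character of `W₁ ⊔ W₂` trivial on both factors is trivial -/
theorem hom_eq_one_of_trivial {G : Type*} [Group G] (W₁ W₂ : Subgroup G)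
    (η : ↥(W₁ ⊔ W₂) →* ℂˣ)
    (h1 : ∀ w : ↥(W₁ ⊔ W₂), (w : G) ∈ W₁ → η w = 1)
    (h2 : ∀ w : ↥(W₁ ⊔ W₂), (w : G) ∈ W₂ → η w = 1) : η = 1 := by
  have hle : W₁ ⊔ W₂ ≤ (η.ker).map (W₁ ⊔ W₂).subtype := by
    apply sup_le
    · intro x hx
      exact ⟨⟨x, (le_sup_left : W₁ ≤ W₁ ⊔ W₂) hx⟩, MonoidHom.mem_ker.mpr (h1 _ hx), rfl⟩
    · intro x hx
      exact ⟨⟨x, (le_sup_right : W₂ ≤ W₁ ⊔ W₂) hx⟩, MonoidHom.mem_ker.mpr (h2 _ hx), rfl⟩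
  apply MonoidHom.ext
  intro w
  obtain ⟨w', hw', hww⟩ := hle w.2
  have hw'' : w' = w := Subtype.ext hww
  rw [← hw'']
  exact MonoidHom.mem_ker.mp hw'

/-- unique factorisation of linear characters of `W₁ ⊔ W₂` -/
theorem hom_prod_eq {G : Type*} [Group G] (W₁ W₂ : Subgroup G)
    (φ φ₀ ψ ψ₀ : ↥(W₁ ⊔ W₂) →* ℂˣ)
    (hφ : ∀ w : ↥(W₁ ⊔ W₂), (w : G) ∈ W₂ → φ w = 1)
    (hφ₀ : ∀ w : ↥(W₁ ⊔ W₂), (w : G) ∈ W₂ → φ₀ w = 1)
    (hψ : ∀ w : ↥(W₁ ⊔ W₂), (w : G) ∈ W₁ → ψ w = 1)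
    (hψ₀ : ∀ w : ↥(W₁ ⊔ W₂), (w : G) ∈ W₁ → ψ₀ w = 1)
    (h : φ * ψ = φ₀ * ψ₀) : φ = φ₀ ∧ ψ = ψ₀ := by
  constructor
  · have h2 : φ * φ₀⁻¹ = 1 := by
      apply hom_eq_one_of_trivial W₁ W₂
      · intro w hw
        have h3 := DFunLike.congr_fun h w
        simp only [MonoidHom.mul_apply, hψ w hw, hψ₀ w hw, mul_one] at h3
        simp [h3]
      · intro w hw
        simp [hφ w hw, hφ₀ w hw]
    exact mul_inv_eq_one.mp h2
  · have h2 : ψ * ψ₀⁻¹ = 1 := by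
      apply hom_eq_one_of_trivial W₁ W₂
      · intro w hw
        simp [hψ w hw, hψ₀ w hw]
      · intro w hw
        have h3 := DFunLike.congr_fun h w
        simp only [MonoidHom.mul_apply, hφ w hw, hφ₀ w hw, one_mul] at h3
        simp [h3]
    exact mul_inv_eq_one.mp h2

/-- inner product of `(1 - φ)(1 - ψ)` with a product character `φ₀ψ₀` -/
theorem alpha_inner_prod {G : Type*} [Group G] (W₁ W₂ : Subgroup G) [Fintype ↥(W₁ ⊔ W₂)]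
    (φ φ₀ ψ ψ₀ : ↥(W₁ ⊔ W₂) →* ℂˣ)
    (hφ : ∀ w : ↥(W₁ ⊔ W₂), (w : G) ∈ W₂ → φ w = 1)
    (hφ₀ : ∀ w : ↥(W₁ ⊔ W₂), (w : G) ∈ W₂ → φ₀ w = 1)
    (hψ : ∀ w : ↥(W₁ ⊔ W₂), (w : G) ∈ W₁ → ψ w = 1)
    (hψ₀ : ∀ w : ↥(W₁ ⊔ W₂), (w : G) ∈ W₁ → ψ₀ w = 1)
    (hφ₀1 : φ₀ ≠ 1) (hψ₀1 : ψ₀ ≠ 1) :
    Cfsg.classInner (alphaFn φ ψ) (fun w => (((φ₀ * ψ₀) w : ℂˣ) : ℂ))
      = if φ = φ₀ ∧ ψ = ψ₀ then 1 else 0 := by
  classical
  have htriv : ∀ w : ↥(W₁ ⊔ W₂), (1 : ↥(W₁ ⊔ W₂) →* ℂˣ) w = 1 := fun w => rfl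
  rw [alpha_inner]
  have e1 : ¬ ((1 : ↥(W₁ ⊔ W₂) →* ℂˣ) = φ₀ * ψ₀) := by
    intro h
    have h' : (1 : ↥(W₁ ⊔ W₂) →* ℂˣ) * 1 = φ₀ * ψ₀ := (mul_one _).trans h
    exact hφ₀1 (hom_prod_eq W₁ W₂ 1 φ₀ 1 ψ₀ (fun w _ => htriv w) hφ₀ (fun w _ => htriv w) hψ₀ h').1.symm
  have e2 : ¬ (φ = φ₀ * ψ₀) := by
    intro h
    have h' : φ * 1 = φ₀ * ψ₀ := (mul_one _).trans h
    exact hψ₀1 (hom_prod_eq W₁ W₂ φ φ₀ 1 ψ₀ hφ hφ₀ (fun w _ => htriv w) hψ₀ h').2.symm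
  have e3 : ¬ (ψ = φ₀ * ψ₀) := by
    intro h
    have h' : 1 * ψ = φ₀ * ψ₀ := (one_mul _).trans h
    exact hφ₀1 (hom_prod_eq W₁ W₂ 1 φ₀ ψ ψ₀ (fun w _ => htriv w) hφ₀ hψ hψ₀ h').1.symm
  rw [if_neg e1, if_neg e2, if_neg e3]
  by_cases h4 : φ = φ₀ ∧ ψ = ψ₀
  · rw [if_pos h4, if_pos (by rw [h4.1, h4.2])]; ring
  · rw [if_neg h4, if_neg (fun h => h4 (hom_prod_eq W₁ W₂ φ φ₀ ψ ψ₀ hφ hφ₀ hψ hψ₀ h))]; ring

end Cfsg.Agent.Lib.Helper6
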