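import Mathlib
import Cfsg.Agent.Lib.Helper6.LinChar
import Cfsg.Agent.Lib.Lead.Hall
import Cfsg.Prelude.Def_OddOrderLocal

/-!
Self-normalising cyclic pairs: the TI-set `W ∖ (W₁ ∪ W₂)` and inner products of the
functions `(1 - φ)(1 - ψ)`.
-/

set_option autoImplicit false

namespace Cfsg.Agent.Lib.Helper6

open Cfsg.Agent.Lib

/-- in a cyclic group, an element killed by the order of a subgroup lies in it -/
theorem cyc_mem_of_pow {G : Type*} [Group G] [Finite G] (W W₁ : Subgroup G) (hle : W₁ ≤ W)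
    [hc : IsCyclic W] (x : G) (hx : x ∈ W) (hpow : x ^ Nat.card W₁ = 1) : x ∈ W₁ := by
  classical
  haveI : Fintype W := Fintype.ofFinite W
  have hn : 0 < Nat.card W₁ := Nat.card_pos
  have h1 := IsCyclic.card_pow_eq_one_le (α := W) hn
  have hAB : Finset.univ.filter (fun y : W => (y : G) ∈ W₁)
      ⊆ Finset.univ.filter (fun a : W => a ^ Nat.card W₁ = 1) := by
    intro y hy
    rw [Finset.mem_filter] at hy ⊢
    refine ⟨Finset.mem_univ _, ?_⟩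
    apply Subtype.ext
    have h2 : (⟨(y : G), hy.2⟩ : W₁) ^ Nat.card W₁ = 1 := pow_card_eq_one'
    have h3 := congrArg Subtype.val h2
    exact h3
  have hA : (Finset.univ.filter (fun y : W => (y : G) ∈ W₁)).card = Nat.card W₁ := by
    rw [← Lead.card_subgroupOf_of_le hle, ← Fintype.card_subtype, ← Nat.card_eq_fintype_card]
    rfl
  have hEq := Finset.eq_of_subset_of_card_le hAB (h1.trans_eq hA.symm)
  have hxB : (⟨x, hx⟩ : W) ∈ Finset.univ.filter (fun a : W => a ^ Nat.card W₁ = 1) := by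
    rw [Finset.mem_filter]
    exact ⟨Finset.mem_univ _, Subtype.ext (by simpa using hpow)⟩
  rw [← hEq, Finset.mem_filter] at hxB
  exact hxB.2

theorem snc_nonempty {G : Type*} [Group G] (W₁ W₂ : Subgroup G)
    (hW : Cfsg.IsSelfNormalizingCyclic W₁ W₂) :
    ((↑(W₁ ⊔ W₂) : Set G) \ (↑W₁ ∪ ↑W₂)).Nonempty := by
  obtain ⟨h1, h2, hdisj, -, -, -⟩ := hW
  obtain ⟨a, ha1⟩ := (Subgroup.ne_bot_iff_exists_ne_one).mp h1
  obtain ⟨b, hb1⟩ := (Subgroup.ne_bot_iff_exists_ne_one).mp h2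
  refine ⟨(a : G) * (b : G), ?_, ?_⟩
  · exact (W₁ ⊔ W₂).mul_mem ((le_sup_left : W₁ ≤ W₁ ⊔ W₂) a.2) ((le_sup_right : W₂ ≤ W₁ ⊔ W₂) b.2)
  · rintro (h | h)
    · have hb' : (b : G) ∈ W₁ := by
        have := W₁.mul_mem (W₁.inv_mem a.2) h
        simpa using this
      have : (b : G) ∈ W₁ ⊓ W₂ := ⟨hb', b.2⟩
      rw [hdisj, Subgroup.mem_bot] at this
      exact hb1 (Subtype.ext this)
    · have ha' : (a : G) ∈ W₂ := by
        have := W₂.mul_mem h (W₂.inv_mem b.2)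
        simpa using this
      have : (a : G) ∈ W₁ ⊓ W₂ := ⟨a.2, ha'⟩
      rw [hdisj, Subgroup.mem_bot] at this
      exact ha1 (Subtype.ext this)

/-- the set `W ∖ (W₁ ∪ W₂)` is a TI-set with normaliser `W` -/
theorem snc_TI {G : Type*} [Group G] [Finite G] (W₁ W₂ : Subgroup G)
    (hW : Cfsg.IsSelfNormalizingCyclic W₁ W₂) :
    Subgroup.normalizer ((↑(W₁ ⊔ W₂) : Set G) \ (↑W₁ ∪ ↑W₂)) = W₁ ⊔ W₂ ∧
    (∀ g : G, g ∉ W₁ ⊔ W₂ → ∀ t ∈ ((↑(W₁ ⊔ W₂) : Set G) \ (↑W₁ ∪ ↑W₂)),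
      g * t * g⁻¹ ∈ ((↑(W₁ ⊔ W₂) : Set G) \ (↑W₁ ∪ ↑W₂)) → t = 1) := by
  have hN := hW.2.2.2.2.2 _ subset_rfl (snc_nonempty W₁ W₂ hW)
  haveI : IsCyclic ↥(W₁ ⊔ W₂) := hW.2.2.2.2.1
  refine ⟨hN, ?_⟩
  intro g hg t ht ht'
  exfalso
  apply hg
  rw [← hN]
  -- conjugation by g preserves W
  have claimA : ∀ (g t : G), t ∈ ((↑(W₁ ⊔ W₂) : Set G) \ (↑W₁ ∪ ↑W₂)) →
      g * t * g⁻¹ ∈ ((↑(W₁ ⊔ W₂) : Set G) \ (↑W₁ ∪ ↑W₂)) →
      ∀ y ∈ W₁ ⊔ W₂, g * y * g⁻¹ ∈ W₁ ⊔ W₂ := by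
    intro g t ht ht' y hy
    have hNt := hW.2.2.2.2.2 {t} (Set.singleton_subset_iff.mpr ht) (Set.singleton_nonempty t)
    have hNt' := hW.2.2.2.2.2 {g * t * g⁻¹} (Set.singleton_subset_iff.mpr ht')
      (Set.singleton_nonempty _)
    rw [← hNt] at hy
    have hyt : y * t * y⁻¹ = t := by
      have := (Subgroup.mem_set_normalizer_iff.mp hy t).mp (Set.mem_singleton t)
      exact this
    rw [← hNt', Subgroup.mem_set_normalizer_iff]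
    have hc : (g * y * g⁻¹) * (g * t * g⁻¹) * (g * y * g⁻¹)⁻¹ = g * t * g⁻¹ := by
      calc (g * y * g⁻¹) * (g * t * g⁻¹) * (g * y * g⁻¹)⁻¹ = g * (y * t * y⁻¹) * g⁻¹ := by group
        _ = g * t * g⁻¹ := by rw [hyt]
    intro h
    constructor
    · intro hh
      rw [Set.mem_singleton_iff] at hh ⊢
      rw [hh]; exact hc
    · intro hh
      rw [Set.mem_singleton_iff] at hh ⊢
      have h5 : h = (g * y * g⁻¹)⁻¹ * (g * t * g⁻¹) * (g * y * g⁻¹) := by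
        rw [← hh]; group
      rw [h5]
      nth_rewrite 1 [← hc]
      group
  have claimB : ∀ g : G, (∀ y ∈ W₁ ⊔ W₂, g * y * g⁻¹ ∈ W₁ ⊔ W₂) →
      ∀ h ∈ ((↑(W₁ ⊔ W₂) : Set G) \ (↑W₁ ∪ ↑W₂)),
        g * h * g⁻¹ ∈ ((↑(W₁ ⊔ W₂) : Set G) \ (↑W₁ ∪ ↑W₂)) := by
    intro g hgW h hh
    refine ⟨hgW h hh.1, ?_⟩
    rintro (h1 | h1)
    · apply hh.2
      left
      apply cyc_mem_of_pow (W₁ ⊔ W₂) W₁ le_sup_left h hh.1
      have h2 : (g * h * g⁻¹) ^ Nat.card W₁ = 1 := by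
        have := pow_card_eq_one' (G := W₁) (x := ⟨_, h1⟩)
        exact congrArg Subtype.val this
      rw [conj_pow] at h2
      have h3 : h ^ Nat.card W₁ = g⁻¹ * (g * h ^ Nat.card W₁ * g⁻¹) * g := by group
      rw [h3, h2]; group
    · apply hh.2
      right
      apply cyc_mem_of_pow (W₁ ⊔ W₂) W₂ le_sup_right h hh.1
      have h2 : (g * h * g⁻¹) ^ Nat.card W₂ = 1 := by
        have := pow_card_eq_one' (G := W₂) (x := ⟨_, h1⟩)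
        exact congrArg Subtype.val this
      rw [conj_pow] at h2
      have h3 : h ^ Nat.card W₂ = g⁻¹ * (g * h ^ Nat.card W₂ * g⁻¹) * g := by group
      rw [h3, h2]; group
  have hPg := claimA g t ht ht'
  have hPg' : ∀ y ∈ W₁ ⊔ W₂, g⁻¹ * y * g⁻¹⁻¹ ∈ W₁ ⊔ W₂ := by
    apply claimA g⁻¹ (g * t * g⁻¹) ht'
    have : g⁻¹ * (g * t * g⁻¹) * g⁻¹⁻¹ = t := by group
    rw [this]; exact ht
  rw [Subgroup.mem_set_normalizer_iff]
  intro h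
  constructor
  · exact claimB g hPg h
  · intro hh
    have := claimB g⁻¹ hPg' _ hh
    have h6 : g⁻¹ * (g * h * g⁻¹) * g⁻¹⁻¹ = h := by group
    rwa [h6] at this

/-- TI inner-product formula, for a subgroup known to be the normaliser -/
theorem indFun_TI_inner' {G : Type*} [Group G] [Fintype G] (T : Set G) (H : Subgroup G)
    (hH : Subgroup.normalizer T = H)
    (hTI : ∀ g : G, g ∉ H → ∀ t ∈ T, g * t * g⁻¹ ∈ T → t = 1)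
    [Fintype H] (ψ θ : H → ℂ) (hψ : Cfsg.IsClassFunction H ψ) (hθ : Cfsg.IsClassFunction H θ)
    (hψT : ∀ x : H, (x : G) ∉ T → ψ x = 0) (hθT : ∀ x : H, (x : G) ∉ T → θ x = 0)
    (hψ1 : ψ 1 = 0) :
    Cfsg.classInner (Cfsg.indFun H ψ) (Cfsg.indFun H θ) = Cfsg.classInner ψ θ := by
  subst hH
  exact Lead.indFun_TI_inner T hTI ψ θ hψ hθ hψT hθT hψ1

theorem alphaFn_classFn {W : Type*} [Group W] (φ ψ : W →* ℂˣ) :
    Cfsg.IsClassFunction W (alphaFn φ ψ) := by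
  intro g h
  unfold alphaFn
  have h1 : ∀ η : W →* ℂˣ, η (h * g * h⁻¹) = η g := by
    intro η
    rw [map_mul, map_mul, map_inv, mul_inv_cancel_comm]
  rw [h1 φ, h1 ψ]

theorem alphaFn_vanish {G : Type*} [Group G] (W₁ W₂ : Subgroup G)
    (φ ψ : ↥(W₁ ⊔ W₂) →* ℂˣ)
    (hφ : ∀ w : ↥(W₁ ⊔ W₂), (w : G) ∈ W₂ → φ w = 1)
    (hψ : ∀ w : ↥(W₁ ⊔ W₂), (w : G) ∈ W₁ → ψ w = 1)
    (x : ↥(W₁ ⊔ W₂)) (hx : (x : G) ∉ ((↑(W₁ ⊔ W₂) : Set G) \ (↑W₁ ∪ ↑W₂))) :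
    alphaFn φ ψ x = 0 := by
  have h1 : (x : G) ∈ W₁ ∨ (x : G) ∈ W₂ := by
    by_contra hcon
    exact hx ⟨x.2, hcon⟩
  unfold alphaFn
  rcases h1 with h | h
  · rw [hψ x h]; simp
  · rw [hφ x h]; simp

/-- inner product of two functions `(1 - φ)(1 - ψ)` -/
theorem alpha_alpha_inner {G : Type*} [Group G] (W₁ W₂ : Subgroup G) [Fintype ↥(W₁ ⊔ W₂)]
    (φ φ' ψ ψ' : ↥(W₁ ⊔ W₂) →* ℂˣ)
    (hφ : ∀ w : ↥(W₁ ⊔ W₂), (w : G) ∈ W₂ → φ w = 1)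
    (hφ' : ∀ w : ↥(W₁ ⊔ W₂), (w : G) ∈ W₂ → φ' w = 1)
    (hψ : ∀ w : ↥(W₁ ⊔ W₂), (w : G) ∈ W₁ → ψ w = 1)
    (hψ' : ∀ w : ↥(W₁ ⊔ W₂), (w : G) ∈ W₁ → ψ' w = 1)
    (hφ1 : φ ≠ 1) (hψ1 : ψ ≠ 1) (hφ'1 : φ' ≠ 1) (hψ'1 : ψ' ≠ 1) :
    Cfsg.classInner (alphaFn φ ψ) (alphaFn φ' ψ')
      = 1 + (if φ = φ' then 1 else 0) + (if ψ = ψ' then 1 else 0)
        + (if φ = φ' then 1 else 0) * (if ψ = ψ' then 1 else 0) := by
  classical
  have htriv : ∀ w : ↥(W₁ ⊔ W₂), (1 : ↥(W₁ ⊔ W₂) →* ℂˣ) w = 1 := fun w => rfl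
  have n3 : ¬ (φ * ψ = 1) := by
    intro h
    have h' : φ * ψ = 1 * 1 := h.trans (mul_one (1 : ↥(W₁ ⊔ W₂) →* ℂˣ)).symm
    exact hφ1 (hom_prod_eq W₁ W₂ φ 1 ψ 1 hφ (fun w _ => htriv w) hψ (fun w _ => htriv w) h').1
  have n4 : ¬ ((1 : ↥(W₁ ⊔ W₂) →* ℂˣ) = φ') := fun h => hφ'1 h.symm
  have n5 : ¬ (ψ = φ') := by
    intro h
    have h' : 1 * ψ = φ' * 1 := (one_mul ψ).trans (h.trans (mul_one φ').symm)
    exact hψ1 (hom_prod_eq W₁ W₂ 1 φ' ψ 1 (fun w _ => htriv w) hφ' hψ (fun w _ => htriv w) h').2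
  have n6 : ¬ (φ * ψ = φ') := by
    intro h
    have h' : φ * ψ = φ' * 1 := h.trans (mul_one φ').symm
    exact hψ1 (hom_prod_eq W₁ W₂ φ φ' ψ 1 hφ hφ' hψ (fun w _ => htriv w) h').2
  have n7 : ¬ ((1 : ↥(W₁ ⊔ W₂) →* ℂˣ) = ψ') := fun h => hψ'1 h.symm
  have n8 : ¬ (φ = ψ') := by
    intro h
    have h' : φ * 1 = 1 * ψ' := (mul_one φ).trans (h.trans (one_mul ψ').symm)
    exact hφ1 (hom_prod_eq W₁ W₂ φ 1 1 ψ' hφ (fun w _ => htriv w) (fun w _ => htriv w) hψ' h').1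
  have n9 : ¬ (φ * ψ = ψ') := by
    intro h
    have h' : φ * ψ = 1 * ψ' := h.trans (one_mul ψ').symm
    exact hφ1 (hom_prod_eq W₁ W₂ φ 1 ψ ψ' hφ (fun w _ => htriv w) hψ hψ' h').1
  rw [alphaFn_eq φ' ψ', Lead.classInner_add_right, Lead.classInner_add_right,
    Lead.classInner_add_right, Lead.classInner_smul_right, Lead.classInner_smul_right,
    alpha_inner, alpha_inner, alpha_inner,
    alpha_inner_prod W₁ W₂ φ φ' ψ ψ' hφ hφ' hψ hψ' hφ'1 hψ'1,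
    if_pos rfl, if_neg hφ1, if_neg hψ1, if_neg n3, if_neg n4, if_neg n5, if_neg n6, if_neg n7,
    if_neg n8, if_neg n9, map_neg, map_one]
  by_cases h1 : φ = φ' <;> by_cases h2 : ψ = ψ' <;> simp [h1, h2]

end Cfsg.Agent.Lib.Helper6
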