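import Mathlib
import Cfsg.Agent.Lib.Helper6.LinChar

/-!
Dual orthogonality for linear characters of a finite abelian group.
-/

set_option autoImplicit false

namespace Cfsg.Agent.Lib.Helper6

open Cfsg.Agent.Lib

/-- separating characters: an element outside a subgroup of a finite abelian group is detected
by a linear character trivial on the subgroup -/
theorem exists_hom_sep {W : Type*} [Group W] [Finite W] (hcomm : ∀ a b : W, a * b = b * a)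
    (H : Subgroup W) (x : W) (hx : x ∉ H) :
    ∃ φ : W →* ℂˣ, (∀ y ∈ H, φ y = 1) ∧ φ x ≠ 1 := by
  letI : CommGroup W := { ‹Group W› with mul_comm := hcomm }
  haveI : NeZero (Monoid.exponent W) := ⟨Monoid.exponent_ne_zero_of_finite⟩
  have h := (CommGroup.forall_monoidHom_apply_eq_one_iff (M := ℂ) H x).not.mpr hx
  push_neg at h
  exact h

theorem finite_hom {W : Type*} [Group W] [Finite W] (hcomm : ∀ a b : W, a * b = b * a) :
    Finite (W →* ℂˣ) := by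
  letI : CommGroup W := { ‹Group W› with mul_comm := hcomm }
  haveI : NeZero (Monoid.exponent W) := ⟨Monoid.exponent_ne_zero_of_finite⟩
  exact Finite.of_equiv W
    (CommGroup.monoidHom_mulEquiv_of_hasEnoughRootsOfUnity W ℂ).some.symm.toEquiv

/-- the linear characters trivial on a subgroup -/
def trivOn {W : Type*} [Group W] (H : Subgroup W) : Subgroup (W →* ℂˣ) where
  carrier := {φ | ∀ y ∈ H, φ y = 1}
  one_mem' := fun y _ => rfl
  mul_mem' := by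
    intro a b ha hb y hy
    rw [MonoidHom.mul_apply, ha y hy, hb y hy, one_mul]
  inv_mem' := by
    intro a ha y hy
    rw [MonoidHom.inv_apply, ha y hy, inv_one]

theorem mem_trivOn {W : Type*} [Group W] (H : Subgroup W) (φ : W →* ℂˣ) :
    φ ∈ trivOn H ↔ ∀ y ∈ H, φ y = 1 := Iff.rfl

open Classical in
/-- dual orthogonality -/
theorem trivOn_sum {W : Type*} [Group W] [Finite W] (hcomm : ∀ a b : W, a * b = b * a)
    (H : Subgroup W) [Fintype (trivOn H)] (x : W) :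
    ∑ φ : trivOn H, (((φ : W →* ℂˣ) x : ℂˣ) : ℂ)
      = if x ∈ H then (Fintype.card (trivOn H) : ℂ) else 0 := by
  classical
  by_cases hx : x ∈ H
  · rw [if_pos hx]
    have : ∀ φ : trivOn H, (((φ : W →* ℂˣ) x : ℂˣ) : ℂ) = 1 := by
      intro φ
      rw [φ.2 x hx, Units.val_one]
    simp [this]
  · rw [if_neg hx]
    obtain ⟨φ₀, hφ₀, hφ₀x⟩ := exists_hom_sep hcomm H x hx
    have h1 : ∑ φ : trivOn H, (((φ : W →* ℂˣ) x : ℂˣ) : ℂ)
        = (φ₀ x : ℂ) * ∑ φ : trivOn H, (((φ : W →* ℂˣ) x : ℂˣ) : ℂ) := by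
      rw [Finset.mul_sum, ← Equiv.sum_comp (Equiv.mulLeft (⟨φ₀, hφ₀⟩ : trivOn H))]
      apply Finset.sum_congr rfl
      intro φ _
      simp [MonoidHom.mul_apply]
    have h2 : ((φ₀ x : ℂ) - 1) * ∑ φ : trivOn H, (((φ : W →* ℂˣ) x : ℂˣ) : ℂ) = 0 := by
      linear_combination -h1
    rcases mul_eq_zero.mp h2 with h3 | h3
    · exfalso
      apply hφ₀x
      apply Units.ext
      rw [Units.val_one]
      linear_combination h3
    · exact h3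

open Classical in
/-- the twisted sum `Σ_φ φ⁻¹(w) (1 - φ(v))` over the characters trivial on `H` -/
theorem trivOn_twist {W : Type*} [Group W] [Finite W] (hcomm : ∀ a b : W, a * b = b * a)
    (H : Subgroup W) [Fintype (trivOn H)] (w v : W) (hw : w ∉ H) :
    ∑ φ : trivOn H, ((((φ : W →* ℂˣ)⁻¹ w : ℂˣ) : ℂ)) * (1 - (((φ : W →* ℂˣ) v : ℂˣ) : ℂ))
      = -(if w⁻¹ * v ∈ H then (Fintype.card (trivOn H) : ℂ) else 0) := by
  have hw' : w⁻¹ ∉ H := fun h => hw (by simpa using H.inv_mem h)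
  have h1 : ∀ φ : trivOn H,
      ((((φ : W →* ℂˣ)⁻¹ w : ℂˣ) : ℂ)) * (1 - (((φ : W →* ℂˣ) v : ℂˣ) : ℂ))
      = (((φ : W →* ℂˣ) w⁻¹ : ℂˣ) : ℂ) - (((φ : W →* ℂˣ) (w⁻¹ * v) : ℂˣ) : ℂ) := by
    intro φ
    rw [MonoidHom.inv_apply, map_mul, map_inv, Units.val_mul]
    ring
  simp only [h1]
  rw [Finset.sum_sub_distrib, trivOn_sum hcomm H w⁻¹, trivOn_sum hcomm H (w⁻¹ * v), if_neg hw']
  ring

/-- a function orthogonal to all `(1 - φ)(1 - ψ)` vanishes off `H₁ ∪ H₂` -/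
theorem delta_lemma {W : Type*} [Group W] [Fintype W] (hcomm : ∀ a b : W, a * b = b * a)
    (H₁ H₂ : Subgroup W) (hdisj : H₁ ⊓ H₂ = ⊥) (f : W → ℂ)
    (hf : ∀ φ ψ : W →* ℂˣ, (∀ y ∈ H₂, φ y = 1) → (∀ y ∈ H₁, ψ y = 1) →
      ∑ v : W, alphaFn φ ψ v * f v = 0)
    (w : W) (hw1 : w ∉ H₁) (hw2 : w ∉ H₂) : f w = 0 := by
  classical
  haveI : Finite (W →* ℂˣ) := finite_hom hcomm
  haveI : Fintype (trivOn H₂) := Fintype.ofFinite _
  haveI : Fintype (trivOn H₁) := Fintype.ofFinite _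
  have hAB : ∀ v : W,
      (∑ φ : trivOn H₂, ((((φ : W →* ℂˣ)⁻¹ w : ℂˣ) : ℂ)) * (1 - (((φ : W →* ℂˣ) v : ℂˣ) : ℂ)))
      * (∑ ψ : trivOn H₁, ((((ψ : W →* ℂˣ)⁻¹ w : ℂˣ) : ℂ)) * (1 - (((ψ : W →* ℂˣ) v : ℂˣ) : ℂ)))
      = ∑ φ : trivOn H₂, ∑ ψ : trivOn H₁,
          ((((φ : W →* ℂˣ)⁻¹ w : ℂˣ) : ℂ)) * ((((ψ : W →* ℂˣ)⁻¹ w : ℂˣ) : ℂ))
            * alphaFn (φ : W →* ℂˣ) (ψ : W →* ℂˣ) v := by
    intro v
    rw [Finset.sum_mul_sum]
    apply Finset.sum_congr rfl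
    intro φ _
    apply Finset.sum_congr rfl
    intro ψ _
    unfold alphaFn
    ring
  have h0 : ∑ v : W,
      ((∑ φ : trivOn H₂, ((((φ : W →* ℂˣ)⁻¹ w : ℂˣ) : ℂ)) * (1 - (((φ : W →* ℂˣ) v : ℂˣ) : ℂ)))
      * (∑ ψ : trivOn H₁, ((((ψ : W →* ℂˣ)⁻¹ w : ℂˣ) : ℂ))
          * (1 - (((ψ : W →* ℂˣ) v : ℂˣ) : ℂ)))) * f v = 0 := by
    simp only [hAB, Finset.sum_mul]
    rw [Finset.sum_comm]
    apply Finset.sum_eq_zero
    intro φ _
    rw [Finset.sum_comm]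
    apply Finset.sum_eq_zero
    intro ψ _
    have h1 := hf φ.1 ψ.1 φ.2 ψ.2
    calc ∑ v : W, ((((φ : W →* ℂˣ)⁻¹ w : ℂˣ) : ℂ)) * ((((ψ : W →* ℂˣ)⁻¹ w : ℂˣ) : ℂ))
            * alphaFn (φ : W →* ℂˣ) (ψ : W →* ℂˣ) v * f v
        = ((((φ : W →* ℂˣ)⁻¹ w : ℂˣ) : ℂ)) * ((((ψ : W →* ℂˣ)⁻¹ w : ℂˣ) : ℂ))
            * ∑ v : W, alphaFn (φ : W →* ℂˣ) (ψ : W →* ℂˣ) v * f v := by
          rw [Finset.mul_sum]
          apply Finset.sum_congr rfl
          intro v _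
          ring
      _ = 0 := by rw [h1, mul_zero]
  have h1 : ∀ v : W,
      ((∑ φ : trivOn H₂, ((((φ : W →* ℂˣ)⁻¹ w : ℂˣ) : ℂ)) * (1 - (((φ : W →* ℂˣ) v : ℂˣ) : ℂ)))
      * (∑ ψ : trivOn H₁, ((((ψ : W →* ℂˣ)⁻¹ w : ℂˣ) : ℂ))
          * (1 - (((ψ : W →* ℂˣ) v : ℂˣ) : ℂ)))) * f v
      = if v = w then (Fintype.card (trivOn H₂) : ℂ) * (Fintype.card (trivOn H₁) : ℂ) * f w
        else 0 := by
    intro v
    rw [trivOn_twist hcomm H₂ w v hw2, trivOn_twist hcomm H₁ w v hw1]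
    by_cases hv : v = w
    · rw [if_pos hv, hv, inv_mul_cancel, if_pos H₂.one_mem, if_pos H₁.one_mem]
      ring
    · rw [if_neg hv]
      by_cases h2 : w⁻¹ * v ∈ H₂
      · by_cases h3 : w⁻¹ * v ∈ H₁
        · exfalso
          have : w⁻¹ * v ∈ H₁ ⊓ H₂ := ⟨h3, h2⟩
          rw [hdisj, Subgroup.mem_bot] at this
          have h5 : w = v := inv_mul_eq_one.mp this
          exact hv h5.symm
        · rw [if_neg h3]; ring
      · rw [if_neg h2]; ring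
  rw [Finset.sum_congr rfl (fun v _ => h1 v), Finset.sum_ite_eq' Finset.univ w
    (fun _ => (Fintype.card (trivOn H₂) : ℂ) * (Fintype.card (trivOn H₁) : ℂ) * f w),
    if_pos (Finset.mem_univ w)] at h0
  have hc2 : (Fintype.card (trivOn H₂) : ℂ) ≠ 0 := Nat.cast_ne_zero.mpr Fintype.card_ne_zero
  have hc1 : (Fintype.card (trivOn H₁) : ℂ) ≠ 0 := Nat.cast_ne_zero.mpr Fintype.card_ne_zero
  rcases mul_eq_zero.mp h0 with h | h
  · exact absurd h (mul_ne_zero hc2 hc1)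
  · exact h

end Cfsg.Agent.Lib.Helper6
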