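import Mathlib
import Cfsg.Agent.Lib.Helper6.LinChar2
import Cfsg.Agent.Lib.Helper6.LinChar3
import Cfsg.Agent.Lib.Lead.Coprime

/-!
Cardinalities in the dual of `W = W₁ × W₂` and factorisation of linear characters.
-/

set_option autoImplicit false

namespace Cfsg.Agent.Lib.Helper6

open Cfsg.Agent.Lib

theorem card_trivOn {W : Type*} [Group W] [Finite W] (hcomm : ∀ a b : W, a * b = b * a)
    (H : Subgroup W) : Nat.card (trivOn H) = H.index := by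
  letI : CommGroup W := { ‹Group W› with mul_comm := hcomm }
  haveI : NeZero (Monoid.exponent W) := ⟨Monoid.exponent_ne_zero_of_finite⟩
  have h1 := CommGroup.card_domRestrictHom_ker (M := ℂ) H
  show Nat.card (trivOn H) = Nat.card (W ⧸ H)
  rw [← h1]
  apply Nat.card_congr
  apply Equiv.subtypeEquivRight
  intro φ
  rw [mem_trivOn, MonoidHom.mem_ker]
  constructor
  · intro h
    ext y
    exact congrArg Units.val (h y y.2)
  · intro h y hy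
    exact DFunLike.congr_fun h ⟨y, hy⟩

theorem card_hom {W : Type*} [Group W] [Finite W] (hcomm : ∀ a b : W, a * b = b * a) :
    Nat.card (W →* ℂˣ) = Nat.card W := by
  letI : CommGroup W := { ‹Group W› with mul_comm := hcomm }
  haveI : NeZero (Monoid.exponent W) := ⟨Monoid.exponent_ne_zero_of_finite⟩
  exact CommGroup.card_monoidHom_of_hasEnoughRootsOfUnity W ℂ

theorem snc_comm {G : Type*} [Group G] (W₁ W₂ : Subgroup G)
    (hW : Cfsg.IsSelfNormalizingCyclic W₁ W₂) : ∀ a b : ↥(W₁ ⊔ W₂), a * b = b * a := by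
  haveI : IsCyclic ↥(W₁ ⊔ W₂) := hW.2.2.2.2.1
  intro a b
  letI := IsCyclic.commGroup (α := ↥(W₁ ⊔ W₂))
  exact mul_comm a b

theorem snc_card {G : Type*} [Group G] [Finite G] (W₁ W₂ : Subgroup G)
    (hW : Cfsg.IsSelfNormalizingCyclic W₁ W₂) :
    Nat.card ↥(W₁ ⊔ W₂) = Nat.card W₁ * Nat.card W₂ := by
  apply Lead.card_sup_of_le_normalizer _ hW.2.2.1
  intro b hb
  rw [Subgroup.mem_normalizer_iff]
  intro a
  have hcomm := hW.2.2.2.1
  have hfix : ∀ a ∈ W₁, b * a * b⁻¹ = a := fun a ha => by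
    rw [← hcomm a ha b hb]; group
  constructor
  · intro ha
    rw [hfix a ha]; exact ha
  · intro ha
    have h4 := hcomm _ ha b hb
    have h5 : a = b * a * b⁻¹ := by
      calc a = b⁻¹ * ((b * a * b⁻¹) * b) := by group
        _ = b⁻¹ * (b * (b * a * b⁻¹)) := by rw [h4]
        _ = b * a * b⁻¹ := by group
    rw [h5]; exact ha

theorem snc_dual_cards {G : Type*} [Group G] [Finite G] (W₁ W₂ : Subgroup G)
    (hW : Cfsg.IsSelfNormalizingCyclic W₁ W₂) :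
    Nat.card (trivOn (W₂.subgroupOf (W₁ ⊔ W₂))) = Nat.card W₁ ∧
    Nat.card (trivOn (W₁.subgroupOf (W₁ ⊔ W₂))) = Nat.card W₂ := by
  have hcomm := snc_comm W₁ W₂ hW
  have hcard := snc_card W₁ W₂ hW
  have h1 := (W₁.subgroupOf (W₁ ⊔ W₂)).card_mul_index
  have h2 := (W₂.subgroupOf (W₁ ⊔ W₂)).card_mul_index
  rw [Lead.card_subgroupOf_of_le le_sup_left, hcard] at h1
  rw [Lead.card_subgroupOf_of_le le_sup_right, hcard] at h2
  constructor
  · rw [card_trivOn hcomm]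
    have h3 : Nat.card W₂ * (W₂.subgroupOf (W₁ ⊔ W₂)).index = Nat.card W₂ * Nat.card W₁ := by
      rw [h2, mul_comm]
    exact Nat.eq_of_mul_eq_mul_left Nat.card_pos h3
  · rw [card_trivOn hcomm]
    exact Nat.eq_of_mul_eq_mul_left Nat.card_pos h1

/-- every linear character of `W₁ ⊔ W₂` factors as `φ ψ`, `φ` trivial on `W₂`, `ψ` on `W₁` -/
theorem hom_factor {G : Type*} [Group G] [Finite G] (W₁ W₂ : Subgroup G)
    (hW : Cfsg.IsSelfNormalizingCyclic W₁ W₂) (ω : ↥(W₁ ⊔ W₂) →* ℂˣ) :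
    ∃ φ ψ : ↥(W₁ ⊔ W₂) →* ℂˣ, (∀ w : ↥(W₁ ⊔ W₂), (w : G) ∈ W₂ → φ w = 1) ∧
      (∀ w : ↥(W₁ ⊔ W₂), (w : G) ∈ W₁ → ψ w = 1) ∧ ω = φ * ψ := by
  have hcomm := snc_comm W₁ W₂ hW
  haveI : Finite (↥(W₁ ⊔ W₂) →* ℂˣ) := finite_hom hcomm
  obtain ⟨hc1, hc2⟩ := snc_dual_cards W₁ W₂ hW
  have hinj : Function.Injective
      (fun p : trivOn (W₂.subgroupOf (W₁ ⊔ W₂)) × trivOn (W₁.subgroupOf (W₁ ⊔ W₂)) =>
        (p.1 : ↥(W₁ ⊔ W₂) →* ℂˣ) * (p.2 : ↥(W₁ ⊔ W₂) →* ℂˣ)) := by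
    rintro ⟨φ, ψ⟩ ⟨φ', ψ'⟩ h
    obtain ⟨e1, e2⟩ := hom_prod_eq W₁ W₂ φ.1 φ'.1 ψ.1 ψ'.1 (fun w hw => φ.2 w hw)
      (fun w hw => φ'.2 w hw) (fun w hw => ψ.2 w hw) (fun w hw => ψ'.2 w hw) h
    exact Prod.ext (Subtype.ext e1) (Subtype.ext e2)
  have hbij := hinj.bijective_of_nat_card_le (by
    rw [Nat.card_prod, hc1, hc2, card_hom hcomm, snc_card W₁ W₂ hW])
  obtain ⟨⟨φ, ψ⟩, hp⟩ := hbij.2 ω
  exact ⟨φ.1, ψ.1, fun w hw => φ.2 w hw, fun w hw => ψ.2 w hw, hp.symm⟩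

end Cfsg.Agent.Lib.Helper6
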