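import Mathlib

set_option autoImplicit false

namespace Cfsg.Agent.Lib.Helper6

/-- Counting lemma for malnormal subgroups: if `M ≤ K` and `M ∩ M^k = 1` for `k ∈ K \ M`, then the set
of nonidentity elements that are `K`-conjugate into `M` has at least `|K|(|M|-1)/|M|` elements. -/
theorem malnormal_count {G : Type*} [Group G] [Finite G] (K M : Subgroup G)
    (hmal : ∀ k ∈ K, k ∉ M → ∀ m ∈ M, k * m * k⁻¹ ∈ M → m = 1) :
    Nat.card K * (Nat.card M - 1) ≤
      Nat.card M * Set.ncard {y : G | y ≠ 1 ∧ ∃ k ∈ K, k⁻¹ * y * k ∈ M} := by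
  classical
  have : Fintype G := Fintype.ofFinite G
  let f : K × {m : M // m ≠ 1} → G := fun km => (km.1 : G) * ((km.2 : M) : G) * (km.1 : G)⁻¹
  have hrange : ∀ km, f km ∈ {y : G | y ≠ 1 ∧ ∃ k ∈ K, k⁻¹ * y * k ∈ M} := by
    rintro ⟨k, m⟩
    refine ⟨?_, k, k.2, ?_⟩
    · intro h
      apply m.2
      have h' : ((m : M) : G) = 1 := by
        have h2 : (k : G) * ((m : M) : G) * (k : G)⁻¹ = 1 := h
        have := congrArg (fun z => (k : G)⁻¹ * z * (k : G)) h2
        simpa [mul_assoc] using this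
      exact Subtype.ext h'
    · have : (k : G)⁻¹ * f (k, m) * (k : G) = ((m : M) : G) := by
        show (k : G)⁻¹ * ((k : G) * ((m : M) : G) * (k : G)⁻¹) * (k : G) = ((m : M) : G)
        group
      rw [this]; exact (m : M).2
  have hfib : ∀ a ∈ (Finset.univ : Finset (K × {m : M // m ≠ 1})).image f,
      ((Finset.univ : Finset (K × {m : M // m ≠ 1})).filter (fun x => f x = a)).card
        ≤ Nat.card M := by
    intro a ha
    obtain ⟨⟨k₀, m₀⟩, -, rfl⟩ := Finset.mem_image.mp ha
    rw [Nat.card_eq_fintype_card, ← Finset.card_univ (α := M)]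
    have hkey : ∀ km : K × {m : M // m ≠ 1}, f km = f (k₀, m₀) →
        (k₀ : G)⁻¹ * (km.1 : G) ∈ M := by
      rintro ⟨k, m⟩ h
      by_contra hnot
      have h1 : ((k₀ : G)⁻¹ * (k : G)) * ((m : M) : G) * ((k₀ : G)⁻¹ * (k : G))⁻¹
          = ((m₀ : M) : G) := by
        have h2 : (k : G) * ((m : M) : G) * (k : G)⁻¹
            = (k₀ : G) * ((m₀ : M) : G) * (k₀ : G)⁻¹ := h
        have h3 : ((m₀ : M) : G) = (k₀ : G)⁻¹ * ((k₀ : G) * ((m₀ : M) : G) * (k₀ : G)⁻¹)
            * (k₀ : G) := by group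
        rw [h3, ← h2]; group
      have := hmal _ (K.mul_mem (K.inv_mem k₀.2) k.2) hnot _ (m : M).2
        (h1 ▸ (m₀ : M).2)
      exact m.2 (Subtype.ext this)
    refine Finset.card_le_card_of_injOn
      (fun km => if h : (k₀ : G)⁻¹ * (km.1 : G) ∈ M then (⟨_, h⟩ : M) else 1)
      (fun _ _ => Finset.mem_univ _) ?_
    rintro ⟨k, m⟩ hkm ⟨k', m'⟩ hkm' heq
    simp only [Finset.coe_filter, Finset.mem_univ, true_and, Set.mem_ofPred_eq] at hkm hkm'
    have h1 := hkey _ hkm
    have h2 := hkey _ hkm'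
    simp only at h1 h2
    simp only [dif_pos h1, dif_pos h2] at heq
    have hk : (k : G) = (k' : G) := by
      have := congrArg Subtype.val heq
      simpa using this
    have hk' : k = k' := Subtype.ext hk
    subst hk'
    have hm : ((m : M) : G) = ((m' : M) : G) := by
      have h3 : (k : G) * ((m : M) : G) * (k : G)⁻¹ = (k : G) * ((m' : M) : G) * (k : G)⁻¹ :=
        hkm.trans hkm'.symm
      simpa using h3
    have : m = m' := Subtype.ext (Subtype.ext hm)
    rw [this]
  have hcard := Finset.card_le_mul_card_image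
    (s := (Finset.univ : Finset (K × {m : M // m ≠ 1}))) (f := f) (Nat.card M) hfib
  have hc1 : (Finset.univ : Finset (K × {m : M // m ≠ 1})).card
      = Nat.card K * (Nat.card M - 1) := by
    rw [Finset.card_univ, Fintype.card_prod, Nat.card_eq_fintype_card, Nat.card_eq_fintype_card]
    congr 1
    rw [Fintype.card_subtype_compl (fun m : M => m = 1), Fintype.card_subtype_eq]
  have hc2 : ((Finset.univ : Finset (K × {m : M // m ≠ 1})).image f).card
      ≤ Set.ncard {y : G | y ≠ 1 ∧ ∃ k ∈ K, k⁻¹ * y * k ∈ M} := by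
    rw [← Set.ncard_coe_finset]
    apply Set.ncard_le_ncard _ (Set.toFinite _)
    intro y hy
    simp only [Finset.coe_image, Finset.coe_univ, Set.image_univ, Set.mem_range] at hy
    obtain ⟨km, rfl⟩ := hy
    exact hrange km
  calc Nat.card K * (Nat.card M - 1) = _ := hc1.symm
    _ ≤ _ := hcard
    _ ≤ _ := Nat.mul_le_mul_left _ hc2

end Cfsg.Agent.Lib.Helper6
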