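import Mathlib
import Cfsg.Agent.Lib.Lead.Block3
import Cfsg.Agent.Lib.Helper8.Codeg8

set_option autoImplicit false

/-! The principal block has a nontrivial character of `p'`-degree iff `p` divides `|G|`. -/

namespace Cfsg.Agent.Lib.Helper6

open Cfsg.Agent.Lib.Lead

theorem pblock_pprime {G : Type*} [Group G] [Finite G] (p : ℕ) [Fact p.Prime]
    (M : Ideal Cfsg.AlgInt) (hM : Cfsg.IsPModular p M) :
    (∀ χ : Cfsg.IrrCharacter G, χ ∈ Cfsg.principalBlock M G →
      ¬ p ∣ Cfsg.charDegree (χ : G → ℂ) → (χ : G → ℂ) = fun _ => (1 : ℂ)) ↔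
    ¬ p ∣ Nat.card G := by
  classical
  haveI : Fintype G := Fintype.ofFinite G
  haveI : Fintype (Cfsg.IrrCharacter G) := Fintype.ofFinite _
  have hmax : M.IsMaximal := hM.2.1
  constructor
  · intro h hpG
    have hB : Cfsg.IsPBlock M (Cfsg.principalBlock M G) := ⟨irrOne G, rfl⟩
    have h1 := osima_thm p M hM _ hB (1 : G)
    rw [blockCoeff_eq] at h1
    have hone : irrOne G ∈ Cfsg.principalBlock M G := by
      intro g
      have e : Cfsg.centralChar (fun _ : G => (1 : ℂ)) g - Cfsg.centralChar ((irrOne G) : G → ℂ) g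
          = 0 := sub_self _
      rw [e]
      exact mli_zero hmax
    have h2 : (∑ χ : Cfsg.IrrCharacter G, χ.1 1 * (starRingEnd ℂ) (χ.1 1) *
          (if χ ∈ Cfsg.principalBlock M G then 1 else 0)) =
        1 + ∑ χ ∈ Finset.univ.erase (irrOne G), χ.1 1 * (starRingEnd ℂ) (χ.1 1) *
          (if χ ∈ Cfsg.principalBlock M G then 1 else 0) := by
      rw [← Finset.add_sum_erase Finset.univ _ (Finset.mem_univ (irrOne G))]
      congr 1
      rw [if_pos hone]
      show (1 : ℂ) * (starRingEnd ℂ) 1 * 1 = 1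
      simp
    have h3 : Cfsg.MemLocalIdeal M (∑ χ ∈ Finset.univ.erase (irrOne G),
        χ.1 1 * (starRingEnd ℂ) (χ.1 1) * (if χ ∈ Cfsg.principalBlock M G then 1 else 0)) := by
      apply mli_sum hmax
      intro χ hχ
      have hne : χ ≠ irrOne G := (Finset.mem_erase.mp hχ).1
      by_cases hχB : χ ∈ Cfsg.principalBlock M G
      · rw [if_pos hχB, mul_one]
        have hdvd : p ∣ Cfsg.charDegree χ.1 := by
          by_contra hnd
          exact hne (Subtype.ext (h χ hχB hnd))
        have hd := (Cfsg.Agent.Lib.Helper7.DZ.charDegree_spec χ).2.1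
        rw [hd]
        have e : (starRingEnd ℂ) (Cfsg.charDegree χ.1 : ℂ) = (Cfsg.charDegree χ.1 : ℂ) :=
          Complex.conj_natCast _
        rw [e]
        exact mli_mul hmax (mlr_natCast hmax _) (mli_natCast_of_dvd hM hdvd)
      · rw [if_neg hχB, mul_zero]; exact mli_zero hmax
    rw [h2] at h1
    have h4 : Cfsg.MemLocalIdeal M (1 + ∑ χ ∈ Finset.univ.erase (irrOne G),
        χ.1 1 * (starRingEnd ℂ) (χ.1 1) * (if χ ∈ Cfsg.principalBlock M G then 1 else 0)) := by
      have h5 := mli_mul hmax h1 (mli_natCast_of_dvd hM hpG)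
      rw [mul_comm, ← mul_assoc, mul_inv_cancel₀ card_ne_zero_C, one_mul] at h5
      exact h5
    apply not_mli_one hmax
    have h6 := mli_sub hmax h4 h3
    rwa [add_sub_cancel_right] at h6
  · intro hpG χ hχ _
    by_contra hne
    have hne' : χ ≠ irrOne G := fun h => hne (by rw [h]; rfl)
    have h1 := irr_inner_ne hne'
    unfold Cfsg.classInner at h1
    have h2 : ∑ g : G, χ.1 g = 0 := by
      have e : ∑ g : G, χ.1 g * (starRingEnd ℂ) ((irrOne G).1 g) = ∑ g : G, χ.1 g := by
        apply Finset.sum_congr rfl; intro g _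
        show χ.1 g * (starRingEnd ℂ) 1 = χ.1 g
        simp
      rw [e] at h1
      rcases mul_eq_zero.mp h1 with h | h
      · exact absurd h (inv_ne_zero card_ne_zero_C)
      · exact h
    have hχ1 := irr_deg_ne_zero χ
    have h3 : ∀ g : G, Cfsg.MemLocalIdeal M (1 - χ.1 g / χ.1 1) := by
      intro g
      have hg := hχ g
      simp only [Cfsg.centralChar] at hg
      have hkdvd : (Subgroup.centralizer ({g} : Set G)).index ∣ Nat.card G :=
        Subgroup.index_dvd_card _
      have hpk : ¬ p ∣ (Subgroup.centralizer ({g} : Set G)).index := fun h => hpG (h.trans hkdvd)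
      have hinv : Cfsg.MemLocalRing M (((Subgroup.centralizer ({g} : Set G)).index : ℂ)⁻¹) :=
        mlr_inv (mlr_natCast hmax _) (not_mli_natCast hM hpk)
      have hk0 : ((Subgroup.centralizer ({g} : Set G)).index : ℂ) ≠ 0 := by
        have : (Subgroup.centralizer ({g} : Set G)).index ≠ 0 :=
          fun h0 => hpk (by rw [h0]; exact dvd_zero p)
        exact_mod_cast this
      have h4 := mli_mul hmax hinv hg
      have e : ((Subgroup.centralizer ({g} : Set G)).index : ℂ)⁻¹ *
          (((Subgroup.centralizer ({g} : Set G)).index : ℂ) * 1 / 1 -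
            ((Subgroup.centralizer ({g} : Set G)).index : ℂ) * χ.1 g / χ.1 1) =
          1 - χ.1 g / χ.1 1 := by
        field_simp
      rwa [e] at h4
    have h4 : Cfsg.MemLocalIdeal M (∑ g : G, (1 - χ.1 g / χ.1 1)) :=
      mli_sum hmax _ _ (fun g _ => h3 g)
    have h5 : ∑ g : G, (1 - χ.1 g / χ.1 1) = (Nat.card G : ℂ) := by
      rw [Finset.sum_sub_distrib, ← Finset.sum_div, h2, zero_div, sub_zero, Finset.sum_const,
        Finset.card_univ, nsmul_eq_mul, mul_one, Nat.card_eq_fintype_card]
    rw [h5] at h4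
    exact not_mli_natCast hM hpG h4

end Cfsg.Agent.Lib.Helper6
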