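import Mathlib
import Cfsg.Agent.Lib.Helper6.CycSylow
import Cfsg.Agent.Lib.Helper6.PSub
import Cfsg.Agent.Lib.Helper7.Jordan
import Cfsg.Agent.Lib.Helper4.CharP

/-!
If every `p'`-element has a conjugacy class of size prime to `p`, then the `p`-elements commute
with the `p'`-elements (so a Sylow `p`-subgroup is a direct factor).
-/

set_option autoImplicit false

universe u

namespace Cfsg.Agent.Lib.Helper6

open scoped commutatorElement Pointwise

/-- a `p`-subgroup of index prime to `p` inside a Sylow subgroup is that Sylow subgroup -/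
theorem sylow_eq_of_le_of_not_dvd_index {G : Type*} [Group G] [Finite G] {p : ℕ} [Fact p.Prime]
    (P : Sylow p G) (U : Subgroup G) (hU : U ≤ (P : Subgroup G)) (hUi : ¬ p ∣ U.index) :
    (P : Subgroup G) = U := by
  have hp : p.Prime := Fact.out
  apply le_antisymm _ hU
  rw [← Subgroup.relIndex_eq_one]
  have h1 : U.relIndex (P : Subgroup G) ∣ Nat.card (P : Subgroup G) := Subgroup.relIndex_dvd_card _ _
  obtain ⟨k, hk⟩ := IsPGroup.iff_card.mp P.isPGroup'
  rw [hk] at h1
  obtain ⟨j, -, hj⟩ := (Nat.dvd_prime_pow hp).mp h1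
  have h2 : U.relIndex (P : Subgroup G) ∣ U.index := Subgroup.relIndex_dvd_index_of_le hU
  rcases Nat.eq_zero_or_pos j with h0 | h0
  · rw [hj, h0, pow_zero]
  · exfalso
    apply hUi
    refine dvd_trans ?_ h2
    rw [hj]
    exact dvd_pow_self p (by omega)

/-- every `p'`-element has class size prime to `p` -/
def PRegIdx (p : ℕ) (X : Type*) [Group X] : Prop :=
  ∀ y : X, (orderOf y).Coprime p → ¬ p ∣ (Subgroup.centralizer ({y} : Set X)).index

theorem exists_sylow_le_centralizer {X : Type*} [Group X] [Finite X] {p : ℕ} [Fact p.Prime]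
    (hX : PRegIdx p X) (a b : X) (hab : a * b = b * a) (ha : ∃ k : ℕ, orderOf a = p ^ k)
    (hb : (orderOf b).Coprime p) :
    ∃ S : Sylow p X, a ∈ (S : Subgroup X) ∧ ∀ s ∈ (S : Subgroup X), s * b = b * s := by
  have hp : p.Prime := Fact.out
  obtain ⟨k, hk⟩ := ha
  obtain ⟨Cb, hCb⟩ : ∃ Cb : Subgroup X, Cb = Subgroup.centralizer ({b} : Set X) := ⟨_, rfl⟩
  have hmem : ∀ s : X, s ∈ Cb ↔ s * b = b * s := by
    intro s; rw [hCb, Subgroup.mem_centralizer_singleton_iff]
  have hidx : ¬ p ∣ Cb.index := by rw [hCb]; exact hX b hb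
  have haC : a ∈ Cb := (hmem a).mpr hab
  have hzp : IsPGroup p (Subgroup.zpowers (⟨a, haC⟩ : ↥Cb)) := by
    apply IsPGroup.of_card (n := k)
    rw [Nat.card_zpowers, Subgroup.orderOf_mk, hk]
  obtain ⟨T, hT⟩ := hzp.exists_le_sylow
  have hT'p : IsPGroup p ((T : Subgroup ↥Cb).map Cb.subtype) := T.isPGroup'.map _
  obtain ⟨S₂, hS₂⟩ := hT'p.exists_le_sylow
  have hidx' : ¬ p ∣ ((T : Subgroup ↥Cb).map Cb.subtype).index := by
    rw [Subgroup.index_map_subtype]
    intro hdvd
    rcases (Nat.Prime.dvd_mul hp).mp hdvd with h1 | h1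
    · exact T.not_dvd_index h1
    · exact hidx h1
  have heq := sylow_eq_of_le_of_not_dvd_index S₂ _ hS₂ hidx'
  refine ⟨S₂, ?_, ?_⟩
  · rw [heq]
    exact ⟨⟨a, haC⟩, hT (Subgroup.mem_zpowers _), rfl⟩
  · intro s hs
    rw [heq] at hs
    obtain ⟨t, -, rfl⟩ := hs
    exact (hmem _).mp t.2

theorem commute_of_pRegIdx_aux {p : ℕ} [Fact p.Prime] :
    ∀ (n : ℕ) (X : Type u) [Group X] [Finite X], Nat.card X = n → PRegIdx p X →
      ∀ w y : X, (∃ k : ℕ, orderOf w = p ^ k) → (orderOf y).Coprime p → w * y = y * w := by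
  have hp : p.Prime := Fact.out
  intro n
  induction n using Nat.strong_induction_on with
  | _ n ih =>
  intro X _ _ hn hX w y hw hy
  let S : Sylow p X := default
  obtain ⟨ZS, hZS⟩ : ∃ ZS : Subgroup X,
      ZS = (Subgroup.center ↥(S : Subgroup X)).map (S : Subgroup X).subtype := ⟨_, rfl⟩
  have hZSmem : ∀ z ∈ ZS, z ∈ (S : Subgroup X) ∧ ∀ s ∈ (S : Subgroup X), s * z = z * s := by
    intro z hz
    rw [hZS] at hz
    obtain ⟨z₀, hz₀, rfl⟩ := hz
    refine ⟨z₀.2, fun s hs => ?_⟩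
    have := Subgroup.mem_center_iff.mp hz₀ ⟨s, hs⟩
    exact congrArg Subtype.val this
  -- `Z(S)` is central
  have hcentral : ∀ z ∈ ZS, ∀ x : X, x * z = z * x := by
    by_contra hcon
    have hM : Subgroup.centralizer (ZS : Set X) ≠ ⊤ := by
      intro htop
      apply hcon
      intro z hz x
      have hx : x ∈ Subgroup.centralizer (ZS : Set X) := by rw [htop]; trivial
      exact ((Subgroup.mem_centralizer_iff.mp hx) z hz).symm
    obtain ⟨x₀, hx₀⟩ := Cfsg.Agent.Lib.Helper7.exists_not_mem_conj _ hM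
    obtain ⟨a, b, hab, ha, hb, ⟨k, hak⟩, hbcop⟩ := exists_p_decomp' p hp x₀
    have hcomm : a * b = b * a := by
      obtain ⟨i, hi⟩ := Subgroup.mem_zpowers_iff.mp ha
      obtain ⟨j, hj⟩ := Subgroup.mem_zpowers_iff.mp hb
      rw [← hi, ← hj, ← zpow_add, ← zpow_add, add_comm]
    obtain ⟨S₂, haS₂, hbS₂⟩ := exists_sylow_le_centralizer hX a b hcomm ⟨k, hak⟩ hbcop
    obtain ⟨c, hc⟩ := MulAction.exists_smul_eq X S S₂
    apply hx₀ c
    rw [Subgroup.mem_pointwise_smul_iff_inv_smul_mem]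
    have e : (MulAut.conj c)⁻¹ • x₀ = c⁻¹ * x₀ * c := by
      rw [MulAut.smul_def, MulAut.conj_inv_apply]
    rw [e, Subgroup.mem_centralizer_iff]
    intro z hz
    obtain ⟨hzS, hzc⟩ := hZSmem z hz
    have hczS₂ : c * z * c⁻¹ ∈ (S₂ : Subgroup X) := by
      rw [← hc]
      apply (sylow_smul_mem_iff c S _).mpr
      have e2 : c⁻¹ * (c * z * c⁻¹) * c = z := by group
      rw [e2]; exact hzS
    have h1 : a * (c * z * c⁻¹) = (c * z * c⁻¹) * a := by
      have haS : c⁻¹ * a * c ∈ (S : Subgroup X) := by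
        apply (sylow_smul_mem_iff c S a).mp
        rw [hc]; exact haS₂
      have h2 := hzc _ haS
      calc a * (c * z * c⁻¹) = c * ((c⁻¹ * a * c) * z) * c⁻¹ := by group
        _ = c * (z * (c⁻¹ * a * c)) * c⁻¹ := by rw [h2]
        _ = (c * z * c⁻¹) * a := by group
    have h2 : (c * z * c⁻¹) * b = b * (c * z * c⁻¹) := hbS₂ _ hczS₂
    have h3 : x₀ * (c * z * c⁻¹) = (c * z * c⁻¹) * x₀ := by
      rw [← hab]
      calc a * b * (c * z * c⁻¹) = a * (b * (c * z * c⁻¹)) := by group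
        _ = a * ((c * z * c⁻¹) * b) := by rw [h2]
        _ = (a * (c * z * c⁻¹)) * b := by group
        _ = ((c * z * c⁻¹) * a) * b := by rw [h1]
        _ = (c * z * c⁻¹) * (a * b) := by group
    calc z * (c⁻¹ * x₀ * c) = c⁻¹ * ((c * z * c⁻¹) * x₀) * c := by group
      _ = c⁻¹ * (x₀ * (c * z * c⁻¹)) * c := by rw [h3]
      _ = c⁻¹ * x₀ * c * z := by group
  obtain ⟨k, hk⟩ := hw
  by_cases hZ : ZS = ⊥
  · -- the Sylow subgroup is trivial
    have hS : (S : Subgroup X) = ⊥ := by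
      by_contra hne
      haveI : Nontrivial ↥(S : Subgroup X) := (Subgroup.nontrivial_iff_ne_bot _).mpr hne
      have hlt := IsPGroup.bot_lt_center S.isPGroup'
      obtain ⟨z₀, hz₀, hz₀1⟩ := SetLike.exists_of_lt hlt
      have h1 : (z₀ : X) ∈ ZS := by rw [hZS]; exact ⟨z₀, hz₀, rfl⟩
      rw [hZ, Subgroup.mem_bot] at h1
      apply hz₀1
      rw [Subgroup.mem_bot]
      exact Subtype.ext h1
    have hk0 : k = 0 := by
      by_contra hk0
      have h1 : p ∣ Nat.card X := by
        have h2 : orderOf w ∣ Nat.card X := orderOf_dvd_natCard w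
        rw [hk] at h2
        exact (dvd_pow_self p hk0).trans h2
      exact S.ne_bot_of_dvd_card h1 hS
    rw [hk0, pow_zero] at hk
    rw [orderOf_eq_one_iff.mp hk, one_mul, mul_one]
  · -- pass to the quotient by `Z(S)`
    haveI hZn : ZS.Normal := by
      constructor
      intro z hz g
      have h1 := hcentral z hz g
      have e : g * z * g⁻¹ = z := by rw [h1]; group
      rw [e]; exact hz
    have hZSp : IsPGroup p ↥ZS := by
      apply S.isPGroup'.to_le
      intro z hz
      exact (hZSmem z hz).1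
    have hlt : Nat.card (X ⧸ ZS) < n := by
      rw [← hn, ← Subgroup.index_eq_card, ← Subgroup.card_mul_index ZS]
      have h1 : 1 < Nat.card ZS := by
        have h3 : Nat.card ZS ≠ 1 := fun h => hZ (Subgroup.card_eq_one.mp h)
        have h4 : 0 < Nat.card ZS := Nat.card_pos
        omega
      have h2 : 0 < ZS.index := Nat.pos_of_ne_zero Subgroup.index_ne_zero_of_finite
      nlinarith
    have hquot : PRegIdx p (X ⧸ ZS) := by
      intro q hq
      obtain ⟨g, rfl⟩ := QuotientGroup.mk_surjective q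
      obtain ⟨a, b, hab, ha, hb, ⟨j, haj⟩, hbcop⟩ := exists_p_decomp' p hp g
      have ha1 : (QuotientGroup.mk a : X ⧸ ZS) = 1 := by
        have h1 : (QuotientGroup.mk a : X ⧸ ZS) ^ p ^ j = 1 := by
          rw [← QuotientGroup.mk_pow, ← haj, pow_orderOf_eq_one]; rfl
        have h2 : (QuotientGroup.mk a : X ⧸ ZS) ^ orderOf (QuotientGroup.mk g : X ⧸ ZS) = 1 := by
          obtain ⟨i, hi⟩ := Subgroup.mem_zpowers_iff.mp ha
          rw [← hi, QuotientGroup.mk_zpow, ← zpow_natCast, ← zpow_mul, mul_comm, zpow_mul,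
            zpow_natCast, pow_orderOf_eq_one, one_zpow]
        have h3 := pow_gcd_eq_one.mpr ⟨h1, h2⟩
        rwa [Nat.Coprime.gcd_eq_one (Nat.Coprime.pow_left j hq.symm), pow_one] at h3
      have hgb : (QuotientGroup.mk g : X ⧸ ZS) = QuotientGroup.mk b := by
        rw [← hab, QuotientGroup.mk_mul, ha1, one_mul]
      rw [hgb]
      have hidx := hX b hbcop
      intro hdvd
      apply hidx
      have hle : (Subgroup.centralizer ({b} : Set X)).map (QuotientGroup.mk' ZS) ≤
          Subgroup.centralizer ({(QuotientGroup.mk b : X ⧸ ZS)} : Set (X ⧸ ZS)) := by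
        rintro _ ⟨s, hs, rfl⟩
        have hs' : s * b = b * s := Subgroup.mem_centralizer_singleton_iff.mp hs
        rw [Subgroup.mem_centralizer_singleton_iff]
        show (QuotientGroup.mk s : X ⧸ ZS) * QuotientGroup.mk b = QuotientGroup.mk b * QuotientGroup.mk s
        rw [← QuotientGroup.mk_mul, ← QuotientGroup.mk_mul, hs']
      exact (hdvd.trans (Subgroup.index_dvd_of_le hle)).trans
        (Subgroup.index_map_dvd _ (QuotientGroup.mk'_surjective ZS))
    have hwq : ∃ k' : ℕ, orderOf (QuotientGroup.mk w : X ⧸ ZS) = p ^ k' := by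
      have h1 : orderOf (QuotientGroup.mk w : X ⧸ ZS) ∣ p ^ k := by
        rw [← hk]; exact orderOf_map_dvd (QuotientGroup.mk' ZS) w
      obtain ⟨k', -, hk'⟩ := (Nat.dvd_prime_pow hp).mp h1
      exact ⟨k', hk'⟩
    have hyq : (orderOf (QuotientGroup.mk y : X ⧸ ZS)).Coprime p :=
      Nat.Coprime.coprime_dvd_left (orderOf_map_dvd (QuotientGroup.mk' ZS) y) hy
    have hq := ih _ hlt (X ⧸ ZS) rfl hquot _ _ hwq hyq
    have hcZ : ⁅w, y⁆ ∈ ZS := by
      rw [← QuotientGroup.eq_one_iff, commutatorElement_def]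
      have e : ((w * y * w⁻¹ * y⁻¹ : X) : X ⧸ ZS) =
          (QuotientGroup.mk w * QuotientGroup.mk y) * (QuotientGroup.mk w)⁻¹ * (QuotientGroup.mk y)⁻¹ := by
        simp
      rw [e, hq]; group
    have hcc : Commute ⁅w, y⁆ y := (hcentral _ hcZ y).symm
    exact Cfsg.Agent.Lib.Helper4.comm_of_comm_commutator ZS hZSp w y hcZ hcc (orderOf y) hy
      (pow_orderOf_eq_one y)

/-- if every `p'`-element has class size prime to `p`, then `p`-elements commute with
`p'`-elements -/
theorem commute_of_pRegIdx {X : Type u} [Group X] [Finite X] {p : ℕ} [Fact p.Prime]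
    (hX : PRegIdx p X) (w y : X) (hw : ∃ k : ℕ, orderOf w = p ^ k) (hy : (orderOf y).Coprime p) :
    w * y = y * w :=
  commute_of_pRegIdx_aux _ X rfl hX w y hw hy

end Cfsg.Agent.Lib.Helper6
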