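import Mathlib
import Cfsg.Agent.Lib.Helper6.PSolvB0
import Cfsg.Agent.Lib.Helper3.Cores
import Cfsg.Agent.Lib.Helper3.HallHigman
import Cfsg.Agent.Lib.Helper9.Basic

set_option autoImplicit false

/-! `p`-solvable groups: abelian Sylow `p`-subgroups iff all heights in the principal block
are zero. -/

namespace Cfsg.Agent.Lib.Helper6

open Cfsg.Agent.Lib.Lead Cfsg.Agent.Lib.Helper8

theorem psolv_heights {G : Type*} [Group G] [Finite G] (p : ℕ) [Fact p.Prime]
    (M : Ideal Cfsg.AlgInt) (hM : Cfsg.IsPModular p M) (hsolv : Cfsg.IsPSolvable p G)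
    (P : Sylow p G) :
    IsMulCommutative P ↔ ∀ χ ∈ Cfsg.principalBlock M G,
      Cfsg.blockHeight p (Cfsg.principalBlock M G) (χ : G → ℂ) = 0 := by
  classical
  have hp : p.Prime := Fact.out
  have hmax := hM.2.1
  haveI hNn : (Cfsg.pPrimeCore p G).Normal := Cfsg.Agent.Lib.Helper7.pPrimeCore_normal' p G
  have hNcop : (Nat.card (Cfsg.pPrimeCore p G)).Coprime p :=
    Cfsg.Agent.Lib.Helper7.pPrimeCore_coprime (G := G) p
  have hone : irrOne G ∈ Cfsg.principalBlock M G := by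
    intro g
    have e : Cfsg.centralChar (fun _ : G => (1 : ℂ)) g - Cfsg.centralChar ((irrOne G) : G → ℂ) g
        = 0 := sub_self _
    rw [e]
    exact mli_zero hmax
  have hinf : sInf ((fun ψ : Cfsg.IrrCharacter G =>
      (Cfsg.charDegree (ψ : G → ℂ)).factorization p) '' Cfsg.principalBlock M G) = 0 := by
    apply Nat.sInf_eq_zero.mpr
    left
    refine ⟨irrOne G, hone, ?_⟩
    show (Cfsg.charDegree (irrOne G).1).factorization p = 0
    rw [charDegree_irrOne]; simp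
  have hheight : ∀ χ : Cfsg.IrrCharacter G,
      Cfsg.blockHeight p (Cfsg.principalBlock M G) χ.1 = 0 ↔ ¬ p ∣ Cfsg.charDegree χ.1 := by
    intro χ
    unfold Cfsg.blockHeight
    rw [hinf, Nat.sub_zero, Nat.factorization_eq_zero_iff]
    have hpos := (Cfsg.Agent.Lib.Helper7.DZ.charDegree_spec χ).1
    constructor
    · rintro (h | h | h)
      · exact absurd hp h
      · exact h
      · omega
    · intro h; exact Or.inr (Or.inl h)
  have hmem := fun χ => mem_principal_iff_psolv p M hM hsolv χ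
  have hPD : (∀ χ ∈ Cfsg.principalBlock M G,
      Cfsg.blockHeight p (Cfsg.principalBlock M G) (χ : G → ℂ) = 0) ↔
      Cfsg.Agent.Lib.Helper7.PDeg.PD p (G ⧸ Cfsg.pPrimeCore p G) := by
    constructor
    · intro h χ'
      have hχB : (⟨fun x => χ'.1 (QuotientGroup.mk' (Cfsg.pPrimeCore p G) x),
          isIrrCharacter_comp_surj (QuotientGroup.mk' (Cfsg.pPrimeCore p G))
            (QuotientGroup.mk'_surjective _) χ'.2⟩ : Cfsg.IrrCharacter G)
          ∈ Cfsg.principalBlock M G := by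
        rw [hmem]
        intro g hg
        show χ'.1 (QuotientGroup.mk' _ g) = χ'.1 (QuotientGroup.mk' _ 1)
        have e : QuotientGroup.mk' (Cfsg.pPrimeCore p G) g = 1 :=
          (QuotientGroup.eq_one_iff g).mpr hg
        rw [e, map_one]
      have h1 := (hheight _).mp (h _ hχB)
      have e : Cfsg.charDegree (fun x => χ'.1 (QuotientGroup.mk' (Cfsg.pPrimeCore p G) x))
          = Cfsg.charDegree χ'.1 := by
        unfold Cfsg.charDegree
        beta_reduce
        rw [map_one]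
      rwa [e] at h1
    · intro h χ hχ
      rw [hheight]
      obtain ⟨χ', hχ'⟩ := Cfsg.Agent.Lib.Helper7.Codeg.exists_irr_quot χ (Cfsg.pPrimeCore p G)
        ((hmem χ).mp hχ)
      have e : Cfsg.charDegree χ.1 = Cfsg.charDegree χ'.1 := by
        unfold Cfsg.charDegree
        rw [← hχ' 1]; rfl
      rw [e]; exact h χ'
  rw [hPD]
  have hPbp : IsPGroup p ((P : Subgroup G).map (QuotientGroup.mk' (Cfsg.pPrimeCore p G))) :=
    P.isPGroup'.map _
  have hPbidx : ¬ p ∣ ((P : Subgroup G).map (QuotientGroup.mk' (Cfsg.pPrimeCore p G))).index :=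
    fun h => P.not_dvd_index (h.trans (Subgroup.index_map_dvd _ (QuotientGroup.mk'_surjective _)))
  have hPN : (P : Subgroup G) ⊓ Cfsg.pPrimeCore p G = ⊥ := Subgroup.inf_eq_bot_of_coprime (by
    obtain ⟨k, hk⟩ := IsPGroup.iff_card.mp P.isPGroup'
    rw [hk]; exact Nat.Coprime.pow_left k hNcop.symm)
  have hsolvQ := Cfsg.Agent.Lib.Helper3.isPSolvable_quotient p (Cfsg.pPrimeCore p G) hsolv
  have hcoreQ : Cfsg.pPrimeCore p (G ⧸ Cfsg.pPrimeCore p G) = ⊥ :=
    Cfsg.Agent.Lib.Lead.pPrimeCore_quotient p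
  constructor
  · intro hab
    have hPbab : ∀ x ∈ (P : Subgroup G).map (QuotientGroup.mk' (Cfsg.pPrimeCore p G)),
        ∀ y ∈ (P : Subgroup G).map (QuotientGroup.mk' (Cfsg.pPrimeCore p G)), x * y = y * x := by
      rintro _ ⟨a, ha, rfl⟩ _ ⟨b, hb, rfl⟩
      rw [← map_mul, ← map_mul]
      congr 1
      have h1 := hab.is_comm.comm (⟨a, ha⟩ : P) ⟨b, hb⟩
      exact congrArg Subtype.val h1
    have hle : Cfsg.pCore p (G ⧸ Cfsg.pPrimeCore p G) ≤
        (P : Subgroup G).map (QuotientGroup.mk' (Cfsg.pPrimeCore p G)) :=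
      Cfsg.Agent.Lib.Helper3.pCore_le_sylow (hPbp.toSylow hPbidx)
    have hcent : (P : Subgroup G).map (QuotientGroup.mk' (Cfsg.pPrimeCore p G)) ≤
        Subgroup.centralizer ((Cfsg.pCore p (G ⧸ Cfsg.pPrimeCore p G) :
          Subgroup (G ⧸ Cfsg.pPrimeCore p G)) : Set (G ⧸ Cfsg.pPrimeCore p G)) := by
      intro x hx
      rw [Subgroup.mem_centralizer_iff]
      intro y hy
      exact hPbab y (hle hy) x hx
    have hHH := Cfsg.Agent.Lib.Helper3.centralizer_pCore_le_of_isPSolvable hsolvQ hcoreQ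
    have heq : (P : Subgroup G).map (QuotientGroup.mk' (Cfsg.pPrimeCore p G))
        = Cfsg.pCore p (G ⧸ Cfsg.pPrimeCore p G) := le_antisymm (hcent.trans hHH) hle
    haveI : ((P : Subgroup G).map (QuotientGroup.mk' (Cfsg.pPrimeCore p G))).Normal := by
      rw [heq]; exact Cfsg.Agent.Lib.Helper9.pCore_normal p _
    exact Cfsg.Agent.Lib.Helper7.PDeg.PD_of_normal_comm p _ hPbab hPbidx
  · intro hPD'
    obtain ⟨Q, hQn⟩ := Cfsg.Agent.Lib.Helper7.PDeg.exists_normal_sylow p _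
      (G ⧸ Cfsg.pPrimeCore p G) rfl hsolvQ hPD'
    have hQab := Cfsg.Agent.Lib.Helper7.PDeg.comm_of_PD p Q hQn hPD'
    haveI := hQn
    obtain ⟨g, hg⟩ := MulAction.exists_smul_eq (G ⧸ Cfsg.pPrimeCore p G) Q (hPbp.toSylow hPbidx)
    rw [Sylow.smul_eq_of_normal] at hg
    have hPbQ : (P : Subgroup G).map (QuotientGroup.mk' (Cfsg.pPrimeCore p G))
        = (Q : Subgroup (G ⧸ Cfsg.pPrimeCore p G)) := by
      rw [hg]; rfl
    refine ⟨⟨fun a b => ?_⟩⟩
    apply Subtype.ext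
    have h1 := hQab (QuotientGroup.mk' _ (a : G)) (by rw [← hPbQ]; exact ⟨a, a.2, rfl⟩)
      (QuotientGroup.mk' _ (b : G)) (by rw [← hPbQ]; exact ⟨b, b.2, rfl⟩)
    rw [← map_mul, ← map_mul] at h1
    have h2 : ((a : G) * b)⁻¹ * ((b : G) * a) ∈ Cfsg.pPrimeCore p G := QuotientGroup.eq.mp h1
    have h3 : ((a : G) * b)⁻¹ * ((b : G) * a) ∈ (P : Subgroup G) :=
      Subgroup.mul_mem _ (Subgroup.inv_mem _ (Subgroup.mul_mem _ a.2 b.2))
        (Subgroup.mul_mem _ b.2 a.2)
    have h4 : ((a : G) * b)⁻¹ * ((b : G) * a) ∈ (P : Subgroup G) ⊓ Cfsg.pPrimeCore p G :=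
      ⟨h3, h2⟩
    rw [hPN, Subgroup.mem_bot] at h4
    exact inv_mul_eq_one.mp h4

end Cfsg.Agent.Lib.Helper6
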