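import Mathlib

set_option autoImplicit false

namespace Cfsg.Agent.Lib.Helper6

theorem sdp_pow {F V G : Type*} [Field F] [AddCommGroup V] [Module F V] [Group G]
    (φ : G →* MulAut (Multiplicative V)) (A : Module.End F V) (g : G)
    (hφ : ∀ v : V, φ g (Multiplicative.ofAdd v) = Multiplicative.ofAdd (A v)) (v : V) (n : ℕ) :
    ((⟨Multiplicative.ofAdd v, g⟩ : Multiplicative V ⋊[φ] G) ^ n)
      = ⟨Multiplicative.ofAdd (∑ i ∈ Finset.range n, (A ^ i) v), g ^ n⟩ := by
  induction n with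
  | zero =>
    rw [pow_zero, pow_zero, Finset.sum_range_zero]; rfl
  | succ n ih =>
    rw [pow_succ', ih]
    apply SemidirectProduct.ext
    · rw [SemidirectProduct.mul_left]
      show Multiplicative.ofAdd v * φ g (Multiplicative.ofAdd (∑ i ∈ Finset.range n, (A ^ i) v))
        = Multiplicative.ofAdd (∑ i ∈ Finset.range (n + 1), (A ^ i) v)
      rw [hφ, ← ofAdd_add, Finset.sum_range_succ', map_sum]
      congr 1
      rw [pow_zero, Module.End.one_apply, add_comm]
      congr 1
      apply Finset.sum_congr rfl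
      intro i _
      rw [pow_succ', Module.End.mul_apply]
    · rw [SemidirectProduct.mul_right]
      show g * g ^ n = g ^ (n + 1)
      rw [pow_succ']

theorem sdp_main {F : Type*} [Field F] (p : ℕ) [Fact p.Prime] [CharP F p] {V : Type*}
    [AddCommGroup V] [Module F V] [FiniteDimensional F V]
    {G : Type*} [Group G] [Finite G] (ρ : Representation F G V) (g : G) :
    (∃ x : Multiplicative V ⋊[(MulAutMultiplicative V).symm.toMonoidHom.comp
        ((DistribMulAction.toAddAut ((V →ₗ[F] V)ˣ) V).comp ρ.asGroupHom)] G,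
        x.right = g ∧ orderOf x = p * orderOf g) ↔
      ¬ (minpoly F (ρ g) ∣ ∑ i ∈ Finset.range (orderOf g), (Polynomial.X : Polynomial F) ^ i) := by
  obtain ⟨φ, hφdef⟩ : ∃ φ : G →* MulAut (Multiplicative V),
      φ = (MulAutMultiplicative V).symm.toMonoidHom.comp
        ((DistribMulAction.toAddAut ((V →ₗ[F] V)ˣ) V).comp ρ.asGroupHom) := ⟨_, rfl⟩
  rw [← hφdef]
  have hφ : ∀ v : V, φ g (Multiplicative.ofAdd v) = Multiplicative.ofAdd (ρ g v) := by
    intro v; rw [hφdef]; rfl
  have hk : 0 < orderOf g := orderOf_pos g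
  obtain ⟨k, hkdef⟩ : ∃ k, k = orderOf g := ⟨_, rfl⟩
  rw [← hkdef] at hk ⊢
  have hgk : g ^ k = 1 := by rw [hkdef]; exact pow_orderOf_eq_one g
  have haeval : ∀ v : V, (Polynomial.aeval (ρ g)
      (∑ i ∈ Finset.range k, (Polynomial.X : Polynomial F) ^ i)) v
        = ∑ i ∈ Finset.range k, ((ρ g) ^ i) v := by
    intro v
    rw [map_sum, LinearMap.sum_apply]
    apply Finset.sum_congr rfl
    intro i _
    rw [map_pow, Polynomial.aeval_X]
  have hpowk : ∀ v : V, ((⟨Multiplicative.ofAdd v, g⟩ : Multiplicative V ⋊[φ] G) ^ k)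
      = ⟨Multiplicative.ofAdd ((Polynomial.aeval (ρ g)
        (∑ i ∈ Finset.range k, (Polynomial.X : Polynomial F) ^ i)) v), 1⟩ := by
    intro v
    rw [sdp_pow φ (ρ g) g hφ v k, haeval, hgk]
  rw [minpoly.dvd_iff]
  constructor
  · rintro ⟨x, hxr, hxo⟩ h0
    have hx : x = ⟨Multiplicative.ofAdd (Multiplicative.toAdd x.left), g⟩ := by
      apply SemidirectProduct.ext
      · rfl
      · exact hxr
    have h1 : x ^ k = 1 := by
      rw [hx, hpowk, h0]; rfl
    have h2 := orderOf_dvd_of_pow_eq_one h1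
    rw [hxo] at h2
    have h3 := Nat.le_of_dvd hk h2
    have hp2 := (Fact.out : p.Prime).two_le
    nlinarith
  · intro h0
    have hex : ∃ v : V, (Polynomial.aeval (ρ g)
        (∑ i ∈ Finset.range k, (Polynomial.X : Polynomial F) ^ i)) v ≠ 0 := by
      by_contra hcon
      push Not at hcon
      exact h0 (LinearMap.ext (fun v => by rw [hcon v]; rfl))
    obtain ⟨v, hv⟩ := hex
    obtain ⟨w, hw⟩ : ∃ w : V, w = (Polynomial.aeval (ρ g)
        (∑ i ∈ Finset.range k, (Polynomial.X : Polynomial F) ^ i)) v := ⟨_, rfl⟩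
    rw [← hw] at hv
    refine ⟨⟨Multiplicative.ofAdd v, g⟩, rfl, ?_⟩
    have hxk : ((⟨Multiplicative.ofAdd v, g⟩ : Multiplicative V ⋊[φ] G) ^ k)
        = SemidirectProduct.inl (Multiplicative.ofAdd w) := by
      rw [hpowk, ← hw]; rfl
    have hxkp : ((⟨Multiplicative.ofAdd v, g⟩ : Multiplicative V ⋊[φ] G) ^ (k * p)) = 1 := by
      rw [pow_mul, hxk, ← map_pow, ← ofAdd_nsmul]
      have h1 : p • w = 0 := by
        rw [← Nat.cast_smul_eq_nsmul F p w, CharP.cast_eq_zero F p, zero_smul]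
      rw [h1]; rfl
    have hd1 := orderOf_dvd_of_pow_eq_one hxkp
    have hd2 : k ∣ orderOf (⟨Multiplicative.ofAdd v, g⟩ : Multiplicative V ⋊[φ] G) := by
      rw [hkdef]
      apply orderOf_dvd_of_pow_eq_one
      have h1 := pow_orderOf_eq_one (⟨Multiplicative.ofAdd v, g⟩ : Multiplicative V ⋊[φ] G)
      rw [sdp_pow φ (ρ g) g hφ v] at h1
      exact congrArg SemidirectProduct.right h1
    obtain ⟨d, hd⟩ := hd2
    rw [hd] at hd1
    have hdp : d ∣ p := Nat.dvd_of_mul_dvd_mul_left hk hd1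
    rcases (Nat.dvd_prime Fact.out).mp hdp with h1 | h1
    · exfalso
      rw [h1, mul_one] at hd
      have h2 := pow_orderOf_eq_one (⟨Multiplicative.ofAdd v, g⟩ : Multiplicative V ⋊[φ] G)
      rw [hd, hxk] at h2
      have h3 : Multiplicative.ofAdd w = 1 := congrArg SemidirectProduct.left h2
      exact hv (by simpa using h3)
    · rw [hd, h1, mul_comm]

end Cfsg.Agent.Lib.Helper6
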