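import Mathlib

set_option autoImplicit false

namespace Cfsg.Agent.Lib.Helper6

variable {G : Type*} [Group G]

/-- orbit–stabilizer for a subgroup `N` acting by conjugation on an element `x` -/
theorem ncard_conj_orbit_mul [Finite G] (N : Subgroup G) (x : G) :
    Set.ncard {y : G | ∃ n ∈ N, y = n * x * n⁻¹} *
      Nat.card (N ⊓ Subgroup.centralizer ({x} : Set G) : Subgroup G) = Nat.card N := by
  classical
  let _inst : MulAction N G := MulAction.compHom G ((MulAut.conj : G →* MulAut G).comp N.subtype)
  have hsmul : ∀ (n : N) (y : G), n • y = (n : G) * y * (n : G)⁻¹ := fun n y => rfl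
  have h1 : (MulAction.stabilizer N x).index = (MulAction.orbit N x).ncard :=
    MulAction.index_stabilizer N x
  have h2 := Subgroup.index_mul_card (MulAction.stabilizer N x)
  have horb : MulAction.orbit N x = {y : G | ∃ n ∈ N, y = n * x * n⁻¹} := by
    ext y
    constructor
    · rintro ⟨n, rfl⟩
      exact ⟨n, n.2, hsmul n x⟩
    · rintro ⟨n, hn, rfl⟩
      exact ⟨⟨n, hn⟩, hsmul _ x⟩
  have hstab : MulAction.stabilizer N x = (Subgroup.centralizer ({x} : Set G)).subgroupOf N := by
    ext n
    rw [MulAction.mem_stabilizer_iff, Subgroup.mem_subgroupOf,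
      Subgroup.mem_centralizer_singleton_iff, hsmul]
    constructor
    · intro h
      have := congrArg (fun z => z * (n : G)) h
      simpa [mul_assoc] using this
    · intro h
      rw [h]; group
  have hcard : Nat.card ((Subgroup.centralizer ({x} : Set G)).subgroupOf N)
      = Nat.card (N ⊓ Subgroup.centralizer ({x} : Set G) : Subgroup G) := by
    rw [inf_comm, ← Subgroup.inf_subgroupOf_right]
    exact Nat.card_congr (Subgroup.subgroupOfEquivOfLe inf_le_right).toEquiv
  rw [h1, horb, hstab, hcard] at h2
  exact h2

end Cfsg.Agent.Lib.Helper6
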