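import Mathlib
import Cfsg.Agent.Lib.Helper1.Subnormal
import Cfsg.Agent.Lib.Helper6.Comm
import Cfsg.Agent.Lib.Helper6.NormGrow
import Cfsg.Agent.Lib.Helper6.PSub

set_option autoImplicit false

namespace Cfsg.Agent.Lib.Helper6

open scoped Pointwise

universe u

/-- transport of relative subnormality along a homomorphism -/
theorem isSubnormal_subgroupOf_of_hom {G₁ G₂ : Type*} [Group G₁] [Group G₂] (f : G₁ →* G₂)
    (A₁ J₁ : Subgroup G₁) (A₂ J₂ : Subgroup G₂) (hJ : ∀ z ∈ J₁, f z ∈ J₂)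
    (hA : ∀ z ∈ J₁, (z ∈ A₁ ↔ f z ∈ A₂)) (h : (A₂.subgroupOf J₂).IsSubnormal) :
    (A₁.subgroupOf J₁).IsSubnormal := by
  let φ : ↥J₁ →* ↥J₂ :=
    { toFun := fun z => ⟨f z, hJ z z.2⟩
      map_one' := Subtype.ext (map_one f)
      map_mul' := fun a b => Subtype.ext (map_mul f (a : G₁) (b : G₁)) }
  have h1 := h.comap φ
  have h2 : (A₂.subgroupOf J₂).comap φ = A₁.subgroupOf J₁ := by
    ext z
    rw [Subgroup.mem_comap, Subgroup.mem_subgroupOf, Subgroup.mem_subgroupOf]
    exact (hA z z.2).symm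
  rwa [h2] at h1

/-- a subnormal, non-normal subgroup `S` of `K` has a conjugate `x S x⁻¹ ≠ S`, `x ∈ K`, that
normalises `S` -/
theorem exists_conj_le_normalizer_aux {G : Type u} [Group G] [Finite G] :
    ∀ (n : ℕ) (K S : Subgroup G), Nat.card K = n → S ≤ K → (S.subgroupOf K).IsSubnormal →
      ¬ K ≤ Subgroup.normalizer (S : Set G) →
      ∃ x ∈ K, x ∉ Subgroup.normalizer (S : Set G) ∧
        ∀ s ∈ S, x * s * x⁻¹ ∈ Subgroup.normalizer (S : Set G) := by
  intro n
  induction n using Nat.strong_induction_on with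
  | _ n ih =>
  intro K S hn hSK hsn hKN
  have hne : S.subgroupOf K ≠ ⊤ := by
    intro h
    rw [Subgroup.subgroupOf_eq_top] at h
    exact hKN (h.trans Subgroup.le_normalizer)
  obtain ⟨L', hL'n, hSL', hL'lt⟩ := hsn.exists_normal_and_le_and_lt_top_of_ne hne
  have hLK : L'.map K.subtype ≤ K := Subgroup.map_subtype_le L'
  have hSL : S ≤ L'.map K.subtype := by
    intro s hs
    exact ⟨⟨s, hSK hs⟩, hSL' (Subgroup.mem_subgroupOf.mpr hs), rfl⟩
  have hcard : Nat.card (L'.map K.subtype) < n := by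
    rw [Subgroup.card_map_of_injective K.subtype_injective, ← hn]
    have := card_lt_card_of_lt hL'lt
    rwa [Subgroup.card_top] at this
  have hKL : ∀ x ∈ K, ∀ l ∈ L'.map K.subtype, x * l * x⁻¹ ∈ L'.map K.subtype := by
    rintro x hx _ ⟨l, hl, rfl⟩
    exact ⟨⟨x, hx⟩ * l * ⟨x, hx⟩⁻¹, hL'n.conj_mem l hl ⟨x, hx⟩, rfl⟩
  by_cases hLN : L'.map K.subtype ≤ Subgroup.normalizer (S : Set G)
  · obtain ⟨x, hxK, hxN⟩ := SetLike.not_le_iff_exists.mp hKN
    exact ⟨x, hxK, hxN, fun s hs => hLN (hKL x hxK s (hSL hs))⟩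
  · have hsn' : (S.subgroupOf (L'.map K.subtype)).IsSubnormal :=
      isSubnormal_subgroupOf_of_hom (MonoidHom.id G) S (L'.map K.subtype) S K
        (fun z hz => hLK hz) (fun z _ => Iff.rfl) hsn
    obtain ⟨x, hxL, hxN, hxS⟩ := ih _ hcard (L'.map K.subtype) S rfl hSL hsn' hLN
    exact ⟨x, hLK hxL, hxN, hxS⟩

/-- Wielandt's zipper lemma: a subgroup that is subnormal in every proper subgroup containing
it but not subnormal in the whole group lies in a unique maximal subgroup -/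
theorem wielandt_zipper {G : Type u} [Group G] [Finite G] :
    ∀ (k : ℕ) (S : Subgroup G), Nat.card G - Nat.card S = k →
      (∀ H : Subgroup G, H ≠ ⊤ → S ≤ H → (S.subgroupOf H).IsSubnormal) → ¬ S.IsSubnormal →
      ∀ K₁ K₂ : Subgroup G, IsCoatom K₁ → IsCoatom K₂ → S ≤ K₁ → S ≤ K₂ → K₁ = K₂ := by
  intro k
  induction k using Nat.strong_induction_on with
  | _ k ih =>
  intro S hk hstar hns
  have hNtop : Subgroup.normalizer (S : Set G) ≠ ⊤ := by
    intro h
    exact hns ((Subgroup.normalizer_eq_top_iff.mp h).isSubnormal)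
  obtain ⟨M, hM, hNM⟩ := (eq_top_or_exists_le_coatom _).resolve_left hNtop
  suffices key : ∀ K : Subgroup G, IsCoatom K → S ≤ K → K = M by
    intro K₁ K₂ h1 h2 hS1 hS2
    rw [key K₁ h1 hS1, key K₂ h2 hS2]
  intro K hK hSK
  by_contra hKM
  have hKN : ¬ K ≤ Subgroup.normalizer (S : Set G) := by
    intro h
    apply hKM
    have h1 : K ≤ M := h.trans hNM
    rcases eq_or_lt_of_le h1 with h2 | h2
    · exact h2
    · exact absurd (hK.2 M h2) hM.1
  obtain ⟨x, hxK, hxN, hxS⟩ :=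
    exists_conj_le_normalizer_aux _ K S rfl hSK (hstar K hK.1 hSK) hKN
  have hmemc : ∀ s ∈ S, x * s * x⁻¹ ∈ MulAut.conj x • S := by
    intro s hs
    rw [mem_conj_smul_iff]
    have e : x⁻¹ * (x * s * x⁻¹) * x = s := by group
    rw [e]; exact hs
  have hcS : MulAut.conj x • S ≤ Subgroup.normalizer (S : Set G) := by
    intro y hy
    rw [mem_conj_smul_iff] at hy
    have := hxS _ hy
    have e : x * (x⁻¹ * y * x) * x⁻¹ = y := by group
    rwa [e] at this
  have hTN : S ⊔ MulAut.conj x • S ≤ Subgroup.normalizer (S : Set G) :=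
    sup_le Subgroup.le_normalizer hcS
  have hcK : MulAut.conj x • S ≤ K := by
    intro y hy
    rw [mem_conj_smul_iff] at hy
    have h1 := hSK hy
    have e : y = x * (x⁻¹ * y * x) * x⁻¹ := by group
    rw [e]; exact K.mul_mem (K.mul_mem hxK h1) (K.inv_mem hxK)
  have hTK : S ⊔ MulAut.conj x • S ≤ K := sup_le hSK hcK
  have hTM : S ⊔ MulAut.conj x • S ≤ M := hTN.trans hNM
  have hST : S < S ⊔ MulAut.conj x • S := by
    refine lt_of_le_of_ne le_sup_left (fun h => hxN ?_)
    apply mem_normalizer_of_conj_mem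
    intro s hs
    have h2 : x * s * x⁻¹ ∈ S ⊔ MulAut.conj x • S := Subgroup.mem_sup_right (hmemc s hs)
    rw [← h] at h2
    exact h2
  have hkT : Nat.card G - Nat.card (S ⊔ MulAut.conj x • S : Subgroup G) < k := by
    have h1 := card_lt_card_of_lt hST
    have h2 : Nat.card (S ⊔ MulAut.conj x • S : Subgroup G) ≤ Nat.card G :=
      Subgroup.card_le_card_group _
    omega
  have hstarT : ∀ H : Subgroup G, H ≠ ⊤ → S ⊔ MulAut.conj x • S ≤ H →
      ((S ⊔ MulAut.conj x • S).subgroupOf H).IsSubnormal := by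
    intro H hH hTH
    have hSH : S ≤ H := le_sup_left.trans hTH
    have hcH : MulAut.conj x • S ≤ H := le_sup_right.trans hTH
    rw [Subgroup.subgroupOf_sup hSH hcH]
    apply Cfsg.Agent.Lib.Helper1.sup_isSubnormal _ _ (hstar H hH hSH)
    have hH' : MulAut.conj x⁻¹ • H ≠ ⊤ := by
      intro h
      apply hH
      rw [eq_top_iff]
      intro y _
      have h1 : x⁻¹ * y * x⁻¹⁻¹ ∈ MulAut.conj x⁻¹ • H := by rw [h]; trivial
      rw [mem_conj_smul_iff] at h1
      have e : x⁻¹⁻¹ * (x⁻¹ * y * x⁻¹⁻¹) * x⁻¹ = y := by group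
      rwa [e] at h1
    have hSH' : S ≤ MulAut.conj x⁻¹ • H := by
      intro s hs
      rw [mem_conj_smul_iff]
      have h1 := hcH (hmemc s hs)
      simpa using h1
    have h3 := hstar _ hH' hSH'
    refine isSubnormal_subgroupOf_of_hom (MulAut.conj x⁻¹).toMonoidHom (MulAut.conj x • S) H S
      (MulAut.conj x⁻¹ • H) ?_ ?_ h3
    · intro z hz
      rw [mem_conj_smul_iff]
      have e : x⁻¹⁻¹ * ((MulAut.conj x⁻¹).toMonoidHom z) * x⁻¹ = z := by
        simp only [MulEquiv.coe_toMonoidHom, MulAut.conj_apply]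
        group
      rw [e]; exact hz
    · intro z _
      rw [mem_conj_smul_iff]
      have e : (MulAut.conj x⁻¹).toMonoidHom z = x⁻¹ * z * x := by
        simp only [MulEquiv.coe_toMonoidHom, MulAut.conj_apply]
        group
      rw [e]
  have hnsT : ¬ (S ⊔ MulAut.conj x • S : Subgroup G).IsSubnormal := by
    intro hT
    apply hns
    haveI : (S.subgroupOf (S ⊔ MulAut.conj x • S)).Normal :=
      Subgroup.normal_subgroupOf_of_le_normalizer hTN
    exact Subgroup.IsSubnormal.trans le_sup_left (Subgroup.Normal.isSubnormal inferInstance) hT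
  exact hKM (ih _ hkT _ rfl hstarT hnsT K M hK hM hTK hTM)

end Cfsg.Agent.Lib.Helper6
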