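import Mathlib
import Cfsg.Agent.Lib.Lead.Basic
import Cfsg.Agent.Lib.Lead.Fitting2
import Cfsg.Agent.Lib.Helper1.Schmidt
import Cfsg.Agent.Lib.Helper6.Comm

set_option autoImplicit false
open Pointwise

namespace Cfsg.Agent.Lib.Helper6

open Cfsg.Agent.Lib Cfsg.Agent.Lib.Lead

variable {G : Type*} [Group G]

/-- the Fitting subgroup of a subgroup, inside the ambient group -/
def FitIn (U : Subgroup G) : Subgroup G := (Cfsg.fittingSubgroup ↥U).map U.subtype

theorem fitIn_le (U : Subgroup G) : FitIn U ≤ U := Subgroup.map_subtype_le _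

theorem le_normalizer_fitIn [Finite G] (U : Subgroup G) :
    U ≤ Subgroup.normalizer (FitIn U : Set G) := by
  intro u hu
  apply mem_normalizer_of_conj_mem
  intro d hd
  obtain ⟨d', hd', rfl⟩ := Subgroup.mem_map.mp hd
  exact Subgroup.mem_map.mpr ⟨⟨u, hu⟩ * d' * ⟨u, hu⟩⁻¹,
    (fitting_normal ↥U).conj_mem d' hd' ⟨u, hu⟩, rfl⟩

theorem fitIn_isNilpotent [Finite G] (U : Subgroup G) : Group.IsNilpotent ↥(FitIn U) := by
  haveI : Group.IsNilpotent ↥(Cfsg.fittingSubgroup ↥U) := fitting_isNilpotent
  exact Group.nilpotent_of_mulEquiv (Subgroup.equivMapOfInjective _ _ U.subtype_injective)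

theorem le_fitIn (U N : Subgroup G) (hNU : N ≤ U)
    (hn : U ≤ Subgroup.normalizer (N : Set G)) (hN : Group.IsNilpotent ↥N) : N ≤ FitIn U := by
  have h1 : (N.subgroupOf U).Normal := (Subgroup.normal_subgroupOf_iff_le_normalizer hNU).mpr hn
  have h2 : Group.IsNilpotent ↥(N.subgroupOf U) :=
    Group.nilpotent_of_mulEquiv (Subgroup.subgroupOfEquivOfLe hNU).symm
  have h3 : N.subgroupOf U ≤ Cfsg.fittingSubgroup ↥U := le_sSup ⟨h1, h2⟩
  intro n hn'
  exact Subgroup.mem_map.mpr ⟨⟨n, hNU hn'⟩, h3 hn', rfl⟩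

theorem conj_fitIn_le [Finite G] (x : G) (U : Subgroup G) :
    MulAut.conj x • FitIn U ≤ FitIn (MulAut.conj x • U) := by
  apply le_fitIn
  · intro y hy
    rw [mem_conj_smul] at hy ⊢
    exact fitIn_le U hy
  · intro y hy
    rw [mem_conj_smul] at hy
    apply mem_normalizer_of_conj_mem
    intro d hd
    rw [mem_conj_smul] at hd ⊢
    have h1 := (Subgroup.mem_normalizer_iff.mp (le_normalizer_fitIn U hy) _).mp hd
    have e : x⁻¹ * (y * d * y⁻¹) * x = x⁻¹ * y * x * (x⁻¹ * d * x) * (x⁻¹ * y * x)⁻¹ := by group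
    rw [e]
    exact h1
  · haveI := fitIn_isNilpotent U
    exact Group.nilpotent_of_mulEquiv (Subgroup.equivSMul (MulAut.conj x) (FitIn U))

/-- A tailored version of Wielandt's zipper lemma: a subgroup lying in the Fitting subgroup of
every proper subgroup containing it, but not in the Fitting subgroup of `G`, lies in a unique
maximal subgroup. -/
theorem zipper [Finite G] : ∀ (k : ℕ) (H : Subgroup G), Nat.card G - Nat.card H = k → H ≠ ⊤ →
    (∀ U : Subgroup G, U ≠ ⊤ → H ≤ U → H ≤ FitIn U) → ¬ H ≤ Cfsg.fittingSubgroup G →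
    ∀ K₁ K₂ : Subgroup G, IsCoatom K₁ → IsCoatom K₂ → H ≤ K₁ → H ≤ K₂ → K₁ = K₂ := by
  intro k
  induction k using Nat.strong_induction_on with
  | _ k ih =>
  intro H hk hHtop hstar hnot
  have hHnil : Group.IsNilpotent ↥H := by
    have h1 : H ≤ FitIn H := hstar H hHtop le_rfl
    have h2 : FitIn H = H := le_antisymm (fitIn_le H) h1
    have h3 := fitIn_isNilpotent H
    exact h2 ▸ h3
  have hNtop : Subgroup.normalizer (H : Set G) ≠ ⊤ := by
    intro h
    apply hnot
    have hn : H.Normal := Subgroup.normalizer_eq_top_iff.mp h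
    exact le_sSup ⟨hn, hHnil⟩
  obtain ⟨M, hM, hNM⟩ :=
    (eq_top_or_exists_le_coatom (Subgroup.normalizer (H : Set G))).resolve_left hNtop
  have key : ∀ K : Subgroup G, IsCoatom K → H ≤ K → K = M := by
    intro K hK hHK
    by_cases hKN : K ≤ Subgroup.normalizer (H : Set G)
    · have hKM : K ≤ M := hKN.trans hNM
      by_contra hne
      exact hM.1 (hK.2 M (lt_of_le_of_ne hKM hne))
    · have hHF : H ≤ FitIn K := hstar K hK.1 hHK
      obtain ⟨x, hxK, hxN, hxH⟩ : ∃ x ∈ K, x ∉ Subgroup.normalizer (H : Set G) ∧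
          MulAut.conj x • H ≤ Subgroup.normalizer (H : Set G) := by
        classical
        let 𝒮 : Set (Subgroup G) :=
          {S | H ≤ S ∧ S ≤ FitIn K ∧ S ≤ Subgroup.normalizer (H : Set G)}
        have hfin : 𝒮.Finite := Set.toFinite _
        have hne : 𝒮.Nonempty := ⟨H, le_rfl, hHF, Subgroup.le_normalizer⟩
        obtain ⟨S, hS, hmax⟩ := Set.exists_max_image 𝒮 (fun V => Nat.card V) hfin hne
        obtain ⟨hHS, hSF, hSN⟩ := hS
        by_cases hSeq : S = FitIn K
        · obtain ⟨x, hxK, hxN⟩ := SetLike.not_le_iff_exists.mp hKN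
          refine ⟨x, hxK, hxN, ?_⟩
          intro y hy
          rw [mem_conj_smul] at hy
          apply hSN
          rw [hSeq]
          have h1 := (Subgroup.mem_normalizer_iff.mp (le_normalizer_fitIn K hxK) _).mp (hHF hy)
          have e : x * (x⁻¹ * y * x) * x⁻¹ = y := by group
          rwa [e] at h1
        · have hlt : S < FitIn K := lt_of_le_of_ne hSF hSeq
          obtain ⟨x, hxF, hxNS, hxS⟩ :=
            Helper1.nilpotent_normalizer_grow (FitIn K) S (fitIn_isNilpotent K) hlt
          have hxN : x ∉ Subgroup.normalizer (H : Set G) := by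
            intro hxN
            have hmem : S ⊔ Subgroup.zpowers x ∈ 𝒮 :=
              ⟨hHS.trans le_sup_left, sup_le hSF (by rw [Subgroup.zpowers_le]; exact hxF),
                sup_le hSN (by rw [Subgroup.zpowers_le]; exact hxN)⟩
            have h1 := hmax _ hmem
            have h2 : S = S ⊔ Subgroup.zpowers x := Subgroup.eq_of_le_of_card_ge le_sup_left h1
            apply hxS
            rw [h2]
            exact Subgroup.mem_sup_right (Subgroup.mem_zpowers x)
          refine ⟨x, fitIn_le K hxF, hxN, ?_⟩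
          intro y hy
          rw [mem_conj_smul] at hy
          apply hSN
          have h1 := (Subgroup.mem_normalizer_iff.mp hxNS _).mp (hHS hy)
          have e : x * (x⁻¹ * y * x) * x⁻¹ = y := by group
          rwa [e] at h1
      have hLM : H ⊔ MulAut.conj x • H ≤ M := (sup_le Subgroup.le_normalizer hxH).trans hNM
      have hLK : H ⊔ MulAut.conj x • H ≤ K := by
        apply sup_le hHK
        intro y hy
        rw [mem_conj_smul] at hy
        have h1 := K.mul_mem (K.mul_mem hxK (hHK hy)) (K.inv_mem hxK)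
        have e : x * (x⁻¹ * y * x) * x⁻¹ = y := by group
        rwa [e] at h1
      have hHL : H < H ⊔ MulAut.conj x • H := by
        refine lt_of_le_of_ne le_sup_left ?_
        intro h
        apply hxN
        apply mem_normalizer_of_conj_smul_eq
        have h1 : MulAut.conj x • H ≤ H := by
          conv_rhs => rw [h]
          exact le_sup_right
        exact Subgroup.eq_of_le_of_card_ge h1 (by rw [card_conj_smul])
      have hcard : Nat.card G - Nat.card ↥(H ⊔ MulAut.conj x • H) < k := by
        have h1 := card_lt_of_lt hHL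
        have h2 : Nat.card ↥(H ⊔ MulAut.conj x • H) ≤ Nat.card G := Subgroup.card_le_card_group _
        omega
      have hLtop : H ⊔ MulAut.conj x • H ≠ ⊤ := fun h => hK.1 (top_le_iff.mp (h ▸ hLK))
      have hLstar : ∀ U : Subgroup G, U ≠ ⊤ → H ⊔ MulAut.conj x • H ≤ U →
          H ⊔ MulAut.conj x • H ≤ FitIn U := by
        intro U hU hLU
        apply sup_le (hstar U hU (le_sup_left.trans hLU))
        have hxU : MulAut.conj x • H ≤ U := le_sup_right.trans hLU
        have h1 : H ≤ MulAut.conj x⁻¹ • U := by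
          intro y hy
          rw [mem_conj_smul, inv_inv]
          exact hxU (conj_mem_conj_smul hy)
        have h2 : MulAut.conj x⁻¹ • U ≠ ⊤ := by
          intro h
          apply hU
          rw [eq_top_iff]
          intro y _
          have h3 : x⁻¹ * y * x ∈ MulAut.conj x⁻¹ • U := by rw [h]; trivial
          rw [mem_conj_smul, inv_inv] at h3
          have e : x * (x⁻¹ * y * x) * x⁻¹ = y := by group
          rwa [e] at h3
        have h3 := hstar _ h2 h1
        have h4 := conj_fitIn_le x (MulAut.conj x⁻¹ • U)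
        have h5 : MulAut.conj x • MulAut.conj x⁻¹ • U = U := by
          rw [← mul_smul, ← map_mul, mul_inv_cancel, map_one, one_smul]
        rw [h5] at h4
        intro y hy
        apply h4
        rw [mem_conj_smul] at hy ⊢
        exact h3 hy
      have hLnot : ¬ H ⊔ MulAut.conj x • H ≤ Cfsg.fittingSubgroup G :=
        fun h => hnot (le_sup_left.trans h)
      exact ih _ hcard _ rfl hLtop hLstar hLnot K M hK hM hLK hLM
  intro K₁ K₂ hK₁ hK₂ h1 h2
  rw [key K₁ hK₁ h1, key K₂ hK₂ h2]

end Cfsg.Agent.Lib.Helper6
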